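import Mathlib
import Cfsg.Prelude.Def_Blocks
import Cfsg.Agent.Lib.Helper80.Codegree

/-!
# Products of two commutators via character sums
-/

set_option autoImplicit false

namespace Cfsg.Agent.Lib.Helper80

open Module

open scoped ComplexConjugate

section CommRep

variable {G : Type*} [Group G] [Fintype G] {V : Type*} [AddCommGroup V] [Module ℂ V]
  [FiniteDimensional ℂ V] (ρ : Representation ℂ G V)

/-- The sum of the conjugates of `ρ a` is a scalar. -/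
theorem sum_conj_rep [ρ.IsIrreducible] (a : G) :
    ∑ b : G, ρ (b * a * b⁻¹)
      = ((Nat.card G : ℂ) * ρ.character a / (finrank ℂ V : ℂ)) • (1 : End ℂ V) := by
  have hcomm : ∀ h : G, (∑ b, ρ (b * a * b⁻¹)) * ρ h = ρ h * ∑ b, ρ (b * a * b⁻¹) := by
    intro h
    rw [Finset.sum_mul, Finset.mul_sum, ← Equiv.sum_comp (Equiv.mulLeft h)]
    refine Finset.sum_congr rfl fun b _ => ?_
    rw [← map_mul, ← map_mul]
    congr 1
    simp [mul_assoc]
  obtain ⟨c, hc⟩ := schur_scalar ρ _ hcomm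
  have hpos := finrank_pos_of_isIrreducible ρ
  have hne : (finrank ℂ V : ℂ) ≠ 0 := by exact_mod_cast hpos.ne'
  have htr : (Nat.card G : ℂ) * ρ.character a = c * (finrank ℂ V : ℂ) := by
    have := congrArg (LinearMap.trace ℂ V) hc
    simp only [map_sum, map_smul, smul_eq_mul, LinearMap.trace_one] at this
    rw [← this]
    have h2 : ∀ b : G, LinearMap.trace ℂ V (ρ (b * a * b⁻¹)) = ρ.character a :=
      fun b => ρ.char_conj a b
    simp_rw [h2]
    rw [Finset.sum_const, Finset.card_univ, nsmul_eq_mul, Nat.card_eq_fintype_card]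
  rw [hc, htr, mul_div_assoc, div_self hne, mul_one]

/-- The sum of `ρ` over all commutators is the scalar `(|G|/χ(1))²`. -/
theorem sum_commutator_rep [ρ.IsIrreducible] :
    ∑ a : G, ∑ b : G, ρ (a * b * a⁻¹ * b⁻¹)
      = (((Nat.card G : ℂ) / (finrank ℂ V : ℂ)) ^ 2) • (1 : End ℂ V) := by
  have h1 : ∀ a : G, ∑ b : G, ρ (a * b * a⁻¹ * b⁻¹)
      = ((Nat.card G : ℂ) / (finrank ℂ V : ℂ)) • (ρ.character a⁻¹ • ρ a) := by
    intro a
    have h := sum_conj_rep ρ a⁻¹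
    calc ∑ b : G, ρ (a * b * a⁻¹ * b⁻¹) = ρ a * ∑ b : G, ρ (b * a⁻¹ * b⁻¹) := by
          rw [Finset.mul_sum]
          refine Finset.sum_congr rfl fun b _ => ?_
          rw [← map_mul]
          congr 1
          simp [mul_assoc]
      _ = ((Nat.card G : ℂ) / (finrank ℂ V : ℂ)) • (ρ.character a⁻¹ • ρ a) := by
          rw [h, mul_smul_comm, mul_one, smul_smul]
          congr 1
          ring
  simp_rw [h1]
  rw [← Finset.smul_sum, sum_char_inv_smul ρ, smul_smul, sq]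

/-- The character sum over products of two commutators. -/
theorem sum_two_commutators_char [ρ.IsIrreducible] (g : G) :
    ∑ a : G, ∑ b : G, ∑ c : G, ∑ d : G,
        ρ.character (a * b * a⁻¹ * b⁻¹ * (c * d * c⁻¹ * d⁻¹) * g)
      = ((Nat.card G : ℂ) / (finrank ℂ V : ℂ)) ^ 4 * ρ.character g := by
  have h := sum_commutator_rep ρ
  have h2 : ∑ a : G, ∑ b : G, ∑ c : G, ∑ d : G,
        ρ (a * b * a⁻¹ * b⁻¹ * (c * d * c⁻¹ * d⁻¹) * g)
      = (∑ a : G, ∑ b : G, ρ (a * b * a⁻¹ * b⁻¹))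
        * (∑ c : G, ∑ d : G, ρ (c * d * c⁻¹ * d⁻¹)) * ρ g := by
    rw [Finset.sum_mul, Finset.sum_mul]
    refine Finset.sum_congr rfl fun a _ => ?_
    rw [Finset.sum_mul, Finset.sum_mul]
    refine Finset.sum_congr rfl fun b _ => ?_
    rw [Finset.mul_sum, Finset.sum_mul]
    refine Finset.sum_congr rfl fun c _ => ?_
    rw [Finset.mul_sum, Finset.sum_mul]
    refine Finset.sum_congr rfl fun d _ => ?_
    rw [map_mul, map_mul]
  have h3 := congrArg (LinearMap.trace ℂ V) h2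
  rw [h, smul_mul_smul_comm, one_mul, smul_mul_assoc, one_mul, map_smul] at h3
  simp only [map_sum] at h3
  unfold Representation.character
  rw [h3, smul_eq_mul]
  congr 1
  ring

end CommRep

section CommIrr

variable {G : Type*} [Group G]

theorem sum_two_commutators_irr [Fintype G] (χ : Cfsg.IrrCharacter G) (g : G) :
    ∑ a : G, ∑ b : G, ∑ c : G, ∑ d : G,
        (χ : G → ℂ) (a * b * a⁻¹ * b⁻¹ * (c * d * c⁻¹ * d⁻¹) * g)
      = ((Nat.card G : ℂ) / (χ : G → ℂ) 1) ^ 4 * (χ : G → ℂ) g := by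
  obtain ⟨χ, n, ρ, hirr, rfl⟩ := χ
  have := hirr
  have h := sum_two_commutators_char ρ g
  rw [← Representation.char_one ρ] at h
  exact h

/-- If `∑ 1/χ(1)² < 2` then every element is a product of two commutators. -/
theorem exists_two_commutators [Finite G]
    (h : ∑ᶠ χ : Cfsg.IrrCharacter G, 1 / ‖(χ : G → ℂ) 1‖ ^ 2 < (2 : ℝ)) (g : G) :
    ∃ a b c d : G, (a * b * a⁻¹ * b⁻¹) * (c * d * c⁻¹ * d⁻¹) = g := by
  classical
  have := Fintype.ofFinite G
  have := Fintype.ofFinite (Cfsg.IrrCharacter G)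
  rw [finsum_eq_sum_of_fintype] at h
  by_contra hno
  push Not at hno
  have hGne : (Nat.card G : ℂ) ≠ 0 := by
    exact_mod_cast (Nat.card_pos (α := G)).ne'
  -- the orthogonality sum vanishes
  have hzero : ∑ χ : Cfsg.IrrCharacter G, ∑ a : G, ∑ b : G, ∑ c : G, ∑ d : G,
      (χ : G → ℂ) (a * b * a⁻¹ * b⁻¹ * (c * d * c⁻¹ * d⁻¹) * g⁻¹) * conj ((χ : G → ℂ) 1) = 0 := by
    rw [Finset.sum_comm]
    refine Finset.sum_eq_zero fun a _ => ?_
    rw [Finset.sum_comm]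
    refine Finset.sum_eq_zero fun b _ => ?_
    rw [Finset.sum_comm]
    refine Finset.sum_eq_zero fun c _ => ?_
    rw [Finset.sum_comm]
    refine Finset.sum_eq_zero fun d _ => ?_
    apply second_orthogonality_of_not_isConj
    intro hc
    have h1 := isConj_one_left.mp hc
    exact hno a b c d (mul_inv_eq_one.mp h1)
  have hχ1 : ∀ χ : Cfsg.IrrCharacter G, (χ : G → ℂ) 1 = (Cfsg.charDegree (χ : G → ℂ) : ℂ) :=
    fun χ => char_one_eq_charDegree (isCharacter_of_isIrrCharacter χ.2)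
  have hS : ∑ χ : Cfsg.IrrCharacter G,
      (χ : G → ℂ) g⁻¹ / (Cfsg.charDegree (χ : G → ℂ) : ℂ) ^ 3 = 0 := by
    have h1 : ∀ χ : Cfsg.IrrCharacter G, ∑ a : G, ∑ b : G, ∑ c : G, ∑ d : G,
        (χ : G → ℂ) (a * b * a⁻¹ * b⁻¹ * (c * d * c⁻¹ * d⁻¹) * g⁻¹) * conj ((χ : G → ℂ) 1)
        = (Nat.card G : ℂ) ^ 4
          * ((χ : G → ℂ) g⁻¹ / (Cfsg.charDegree (χ : G → ℂ) : ℂ) ^ 3) := by
      intro χ
      simp_rw [← Finset.sum_mul]
      rw [sum_two_commutators_irr χ g⁻¹, hχ1, Complex.conj_natCast]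
      have hd : (Cfsg.charDegree (χ : G → ℂ) : ℂ) ≠ 0 := by
        exact_mod_cast (charDegree_pos χ.2).ne'
      field_simp
    simp_rw [h1] at hzero
    rw [← Finset.mul_sum] at hzero
    rcases mul_eq_zero.mp hzero with h2 | h2
    · exact absurd (pow_eq_zero_iff (by norm_num : (4 : ℕ) ≠ 0) |>.mp h2) hGne
    · exact h2
  -- real parts
  have hre := congrArg Complex.re hS
  rw [Complex.re_sum, Complex.zero_re] at hre
  have hnorm : ∀ χ : Cfsg.IrrCharacter G,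
      ‖(χ : G → ℂ) 1‖ = (Cfsg.charDegree (χ : G → ℂ) : ℝ) := by
    intro χ
    rw [hχ1, Complex.norm_natCast]
  have hterm : ∀ χ : Cfsg.IrrCharacter G,
      0 ≤ ((χ : G → ℂ) g⁻¹ / (Cfsg.charDegree (χ : G → ℂ) : ℂ) ^ 3).re
        + 1 / ‖(χ : G → ℂ) 1‖ ^ 2 := by
    intro χ
    have hd : (0 : ℝ) < (Cfsg.charDegree (χ : G → ℂ) : ℝ) := by
      exact_mod_cast charDegree_pos χ.2
    have h1 : ((χ : G → ℂ) g⁻¹ / (Cfsg.charDegree (χ : G → ℂ) : ℂ) ^ 3).re
        = ((χ : G → ℂ) g⁻¹).re / (Cfsg.charDegree (χ : G → ℂ) : ℝ) ^ 3 := by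
      have : ((Cfsg.charDegree (χ : G → ℂ) : ℂ) ^ 3)
          = (((Cfsg.charDegree (χ : G → ℂ) : ℝ) ^ 3 : ℝ) : ℂ) := by push_cast; rfl
      rw [this, Complex.div_ofReal_re]
    rw [h1, hnorm]
    have h2 : -(Cfsg.charDegree (χ : G → ℂ) : ℝ) ≤ ((χ : G → ℂ) g⁻¹).re := by
      have h3 := norm_char_le_charDegree (isCharacter_of_isIrrCharacter χ.2) g⁻¹
      have h4 := Complex.abs_re_le_norm ((χ : G → ℂ) g⁻¹)
      have h5 := neg_abs_le ((χ : G → ℂ) g⁻¹).re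
      linarith
    have h6 : ((χ : G → ℂ) g⁻¹).re / (Cfsg.charDegree (χ : G → ℂ) : ℝ) ^ 3
        ≥ -(Cfsg.charDegree (χ : G → ℂ) : ℝ) / (Cfsg.charDegree (χ : G → ℂ) : ℝ) ^ 3 :=
      div_le_div_of_nonneg_right h2 (by positivity)
    have h7 : -(Cfsg.charDegree (χ : G → ℂ) : ℝ) / (Cfsg.charDegree (χ : G → ℂ) : ℝ) ^ 3
        = - (1 / (Cfsg.charDegree (χ : G → ℂ) : ℝ) ^ 2) := by
      field_simp
    linarith
  have htriv : ((((trivIrr G : Cfsg.IrrCharacter G) : G → ℂ) g⁻¹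
        / (Cfsg.charDegree ((trivIrr G : Cfsg.IrrCharacter G) : G → ℂ) : ℂ) ^ 3).re
        + 1 / ‖((trivIrr G : Cfsg.IrrCharacter G) : G → ℂ) 1‖ ^ 2) = 2 := by
    rw [charDegree_trivIrr, trivIrr_apply, trivIrr_apply]
    norm_num
  have hge : (2 : ℝ) ≤ ∑ χ : Cfsg.IrrCharacter G,
      (((χ : G → ℂ) g⁻¹ / (Cfsg.charDegree (χ : G → ℂ) : ℂ) ^ 3).re
        + 1 / ‖(χ : G → ℂ) 1‖ ^ 2) := by
    rw [← htriv]
    exact Finset.single_le_sum (f := fun χ : Cfsg.IrrCharacter G =>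
      (((χ : G → ℂ) g⁻¹ / (Cfsg.charDegree (χ : G → ℂ) : ℂ) ^ 3).re
        + 1 / ‖(χ : G → ℂ) 1‖ ^ 2)) (fun χ _ => hterm χ) (Finset.mem_univ _)
  rw [Finset.sum_add_distrib, hre] at hge
  linarith

end CommIrr

end Cfsg.Agent.Lib.Helper80
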