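import Mathlib
import Cfsg.Prelude.Def_Blocks
import Cfsg.Prelude.Def_Transfer
import Cfsg.Agent.Lib.Helper80.GagolaSylow

/-!
# Centralizer orders and the centre of a Sylow subgroup for a character vanishing off two classes
-/

set_option autoImplicit false

namespace Cfsg.Agent.Lib.Helper80

open scoped ComplexConjugate

section CenterFacts

variable {G : Type*} [Group G] [Finite G]

/-- If every irreducible character other than `χ` is trivial on `N` and `χ x = 0`, then the
centralizer of `x` has the same order as the centralizer of its image in `G ⧸ N`. -/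
theorem gagola_card_centralizer_quot (χ : Cfsg.IrrCharacter G) (N : Subgroup G) [N.Normal]
    (hother : ∀ ψ : Cfsg.IrrCharacter G, ψ ≠ χ → ∀ x ∈ N, (ψ : G → ℂ) x = (ψ : G → ℂ) 1)
    {x : G} (hx : (χ : G → ℂ) x = 0) :
    Nat.card (Subgroup.centralizer ({x} : Set G))
      = Nat.card (Subgroup.centralizer ({(x : G ⧸ N)} : Set (G ⧸ N))) := by
  classical
  have := Fintype.ofFinite G
  have := Fintype.ofFinite (Cfsg.IrrCharacter G)
  have h1 := second_orthogonality_of_isConj (G := G) (IsConj.refl x)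
  have h2 := second_orthogonality_filter_ker N x x
  rw [if_pos (IsConj.refl _)] at h2
  rw [← Finset.sum_filter_add_sum_filter_not Finset.univ
    (fun χ : Cfsg.IrrCharacter G => ∀ x ∈ N, (χ : G → ℂ) x = (χ : G → ℂ) 1), h2] at h1
  have h3 : ∑ ψ ∈ Finset.univ.filter (fun ψ : Cfsg.IrrCharacter G =>
      ¬ ∀ x ∈ N, (ψ : G → ℂ) x = (ψ : G → ℂ) 1), (ψ : G → ℂ) x * conj ((ψ : G → ℂ) x) = 0 := by
    apply Finset.sum_eq_zero
    intro ψ hψ
    have hψ' := (Finset.mem_filter.mp hψ).2
    have : ψ = χ := by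
      by_contra hne
      exact hψ' (hother ψ hne)
    rw [this, hx, zero_mul]
  rw [h3, add_zero] at h1
  exact_mod_cast h1.symm

/-- A `p`-power dividing the order of `G ⧸ N`, times the order of the `p`-group `N`, divides the
order of a Sylow `p`-subgroup. -/
theorem pow_mul_card_dvd_card_sylow {p : ℕ} [Fact p.Prime] (N : Subgroup G) [N.Normal]
    (hNp : IsPGroup p N) (P : Sylow p G) {m : ℕ} (hm : p ^ m ∣ Nat.card (G ⧸ N)) :
    p ^ m * Nat.card N ∣ Nat.card P := by
  obtain ⟨a, ha⟩ := IsPGroup.iff_card.mp hNp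
  rw [ha, ← pow_add]
  apply P.pow_dvd_card_of_pow_dvd_card
  rw [Subgroup.card_eq_card_quotient_mul_card_subgroup N, ha, pow_add]
  exact Nat.mul_dvd_mul hm (dvd_refl _)

/-- The centre of a Sylow `p`-subgroup lies in `N`. -/
theorem gagola_center_le {p : ℕ} [Fact p.Prime] (χ : Cfsg.IrrCharacter G) (N : Subgroup G)
    [N.Normal] (hNp : IsPGroup p N) (hN1 : N ≠ ⊥)
    (hsupp : ∀ x, x ∈ N ↔ (χ : G → ℂ) x ≠ 0)
    (hother : ∀ ψ : Cfsg.IrrCharacter G, ψ ≠ χ → ∀ x ∈ N, (ψ : G → ℂ) x = (ψ : G → ℂ) 1)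
    (P : Sylow p G) :
    (Subgroup.center ↥(P : Subgroup G)).map (P : Subgroup G).subtype ≤ N := by
  rintro _ ⟨z, hz, rfl⟩
  by_contra hzN
  have hχz : (χ : G → ℂ) ((P : Subgroup G).subtype z) = 0 := by
    by_contra h
    exact hzN ((hsupp _).mpr h)
  have hcard := gagola_card_centralizer_quot χ N hother hχz
  have hP : (P : Subgroup G) ≤ Subgroup.centralizer ({((P : Subgroup G).subtype z)} : Set G) := by
    intro y hy
    rw [Subgroup.mem_centralizer_singleton_iff]
    have := Subgroup.mem_center_iff.mp hz ⟨y, hy⟩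
    exact congrArg Subtype.val this
  have h1 : Nat.card P ∣ Nat.card (G ⧸ N) := by
    have := Subgroup.card_dvd_of_le hP
    rw [hcard] at this
    exact this.trans (Subgroup.card_subgroup_dvd_card _)
  rw [P.card_eq_multiplicity] at h1
  have h2 := pow_mul_card_dvd_card_sylow N hNp P h1
  rw [P.card_eq_multiplicity] at h2
  have hpos : 0 < p ^ (Nat.card G).factorization p := pow_pos (Fact.out : p.Prime).pos _
  have h3 : Nat.card N ∣ 1 := by
    have : p ^ (Nat.card G).factorization p * Nat.card N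
        ∣ p ^ (Nat.card G).factorization p * 1 := by rwa [mul_one]
    exact Nat.dvd_of_mul_dvd_mul_left hpos this
  exact hN1 (Subgroup.eq_bot_of_card_eq N (Nat.dvd_one.mp h3))

/-- A Sylow `p`-subgroup acts transitively on the coset `x N` when `x` is central modulo `N`
and the character vanishes at `x`. -/
theorem gagola_transitive {p : ℕ} [Fact p.Prime] (χ : Cfsg.IrrCharacter G) (N : Subgroup G)
    [N.Normal] (hNp : IsPGroup p N)
    (hother : ∀ ψ : Cfsg.IrrCharacter G, ψ ≠ χ → ∀ x ∈ N, (ψ : G → ℂ) x = (ψ : G → ℂ) 1)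
    (P : Sylow p G) {x : G} (hxP : x ∈ (P : Subgroup G)) (hx : (χ : G → ℂ) x = 0)
    (hcomm : ∀ y ∈ (P : Subgroup G), y * x * y⁻¹ * x⁻¹ ∈ N) :
    ∀ n ∈ N, ∃ y ∈ (P : Subgroup G), y * x * y⁻¹ * x⁻¹ = n := by
  classical
  set x' : (P : Subgroup G) := ⟨x, hxP⟩ with hx'
  have hcard := gagola_card_centralizer_quot χ N hother hx
  set C := Subgroup.centralizer ({x'} : Set (P : Subgroup G)) with hC
  have hCp : IsPGroup p C := P.isPGroup'.to_subgroup C
  obtain ⟨m, hm⟩ := IsPGroup.iff_card.mp hCp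
  have hCle : C.map (P : Subgroup G).subtype ≤ Subgroup.centralizer ({x} : Set G) := by
    rintro _ ⟨c, hc, rfl⟩
    have hc' : c * x' = x' * c := Subgroup.mem_centralizer_singleton_iff.mp hc
    rw [Subgroup.mem_centralizer_singleton_iff]
    exact congrArg Subtype.val hc'
  have hdvd : p ^ m ∣ Nat.card (G ⧸ N) := by
    rw [← hm, ← Subgroup.card_map_of_injective (Subgroup.subtype_injective (P : Subgroup G))]
    refine (Subgroup.card_dvd_of_le hCle).trans ?_
    rw [hcard]
    exact Subgroup.card_subgroup_dvd_card _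
  have hM := pow_mul_card_dvd_card_sylow N hNp P hdvd
  have hindex : Nat.card N ≤ C.index := by
    have h1 := Subgroup.card_mul_index C
    rw [hm] at h1
    rw [← h1] at hM
    exact Nat.le_of_dvd (Nat.pos_of_ne_zero Subgroup.index_ne_zero_of_finite)
      (Nat.dvd_of_mul_dvd_mul_left (pow_pos (Fact.out : p.Prime).pos _) hM)
  have hmem : ∀ h : {h : (P : Subgroup G) // IsConj x' h}, ((h : (P : Subgroup G)) : G) * x⁻¹ ∈ N := by
    rintro ⟨h, hh⟩
    obtain ⟨c, hc⟩ := isConj_iff.mp hh
    have := hcomm c c.2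
    have hc' : (h : G) = c * x * (c : G)⁻¹ := by
      rw [← hc]
      simp [hx']
    change (h : G) * x⁻¹ ∈ N
    rw [hc']
    exact this
  let f : {h : (P : Subgroup G) // IsConj x' h} → N := fun h => ⟨_, hmem h⟩
  have hf : Function.Injective f := by
    intro h₁ h₂ h12
    have := congrArg Subtype.val h12
    simp only [f] at this
    exact Subtype.ext (Subtype.ext (mul_right_cancel this))
  have hbij := hf.bijective_of_nat_card_le (by rw [card_isConj_eq_index]; exact hindex)
  intro n hn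
  obtain ⟨⟨h, hh⟩, hfh⟩ := hbij.2 ⟨n, hn⟩
  obtain ⟨c, hc⟩ := isConj_iff.mp hh
  refine ⟨c, c.2, ?_⟩
  have h1 := congrArg Subtype.val hfh
  simp only [f] at h1
  rw [← h1, ← hc]
  simp [hx']

open scoped commutatorElement in
/-- `N` is a term of the upper central series of a Sylow `p`-subgroup. -/
theorem gagola_upperCentral {p : ℕ} [Fact p.Prime] (χ : Cfsg.IrrCharacter G) (N : Subgroup G)
    [N.Normal] (hNp : IsPGroup p N)
    (hsupp : ∀ x, x ∈ N ↔ (χ : G → ℂ) x ≠ 0)
    (hother : ∀ ψ : Cfsg.IrrCharacter G, ψ ≠ χ → ∀ x ∈ N, (ψ : G → ℂ) x = (ψ : G → ℂ) 1)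
    (P : Sylow p G) :
    ∃ i : ℕ, Subgroup.upperCentralSeries ↥(P : Subgroup G) i = N.subgroupOf (P : Subgroup G) := by
  have hvan : ∀ x : G, x ∉ N → (χ : G → ℂ) x = 0 := by
    intro x hx
    by_contra h
    exact hx ((hsupp x).mpr h)
  set N'' := N.subgroupOf (P : Subgroup G) with hN''
  have key : ∀ i : ℕ, Subgroup.upperCentralSeries ↥(P : Subgroup G) i ≤ N'' →
      ∀ x ∈ Subgroup.upperCentralSeries ↥(P : Subgroup G) (i + 1), x ∉ N'' →
      N'' ≤ Subgroup.upperCentralSeries ↥(P : Subgroup G) i := by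
    intro i hi x hx hxN
    have hxN' : (x : G) ∉ N := fun h => hxN (Subgroup.mem_subgroupOf.mpr h)
    have hcomm' : ∀ y : ↥(P : Subgroup G),
        ⁅y, x⁆ ∈ Subgroup.upperCentralSeries ↥(P : Subgroup G) i := by
      intro y
      rw [← commutatorElement_inv]
      exact inv_mem (Subgroup.mem_upperCentralSeries_succ_iff.mp hx y)
    have hcomm : ∀ y ∈ (P : Subgroup G), y * (x : G) * y⁻¹ * (x : G)⁻¹ ∈ N := by
      intro y hy
      have := Subgroup.mem_subgroupOf.mp (hi (hcomm' ⟨y, hy⟩))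
      rw [commutatorElement_def] at this
      simpa using this
    have htr := gagola_transitive χ N hNp hother P x.2 (hvan _ hxN') hcomm
    intro n hn
    obtain ⟨y, hy, hyn⟩ := htr (n : G) (Subgroup.mem_subgroupOf.mp hn)
    have : n = ⁅(⟨y, hy⟩ : ↥(P : Subgroup G)), x⁆ := by
      apply Subtype.ext
      rw [commutatorElement_def, ← hyn]
      simp
    rw [this]
    exact hcomm' _
  have claim : ∀ i : ℕ, Subgroup.upperCentralSeries ↥(P : Subgroup G) i ≤ N'' ∨
      ∃ j : ℕ, Subgroup.upperCentralSeries ↥(P : Subgroup G) j = N'' := by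
    intro i
    induction i with
    | zero =>
      left
      rw [Subgroup.upperCentralSeries_zero]
      exact bot_le
    | succ i ih =>
      rcases ih with ih | ih
      · by_cases h : Subgroup.upperCentralSeries ↥(P : Subgroup G) (i + 1) ≤ N''
        · exact Or.inl h
        · obtain ⟨x, hx, hxN⟩ := SetLike.not_le_iff_exists.mp h
          exact Or.inr ⟨i, le_antisymm ih (key i ih x hx hxN)⟩
      · exact Or.inr ih
  have hnil : Group.IsNilpotent ↥(P : Subgroup G) := P.isPGroup'.isNilpotent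
  obtain ⟨c, hc⟩ := hnil.nilpotent'
  rcases claim c with h | h
  · rw [hc] at h
    exact ⟨c, by rw [hc]; exact (top_le_iff.mp h).symm⟩
  · exact h

end CenterFacts

end Cfsg.Agent.Lib.Helper80
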