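import Mathlib
import Cfsg.Prelude.Def_Blocks
import Cfsg.Prelude.Def_Transfer
import Cfsg.Prelude.Def_Solvable
import Cfsg.Agent.Lib.Helper80.GagolaCenter
import Cfsg.Agent.Lib.Helper80.FrobPrime
import Cfsg.Agent.Lib.Helper64.Dihedral

/-!
# Characters vanishing off two classes: the support is the `p`-core iff the group is a doubly
transitive Frobenius group
-/

set_option autoImplicit false

namespace Cfsg.Agent.Lib.Helper80

open scoped ComplexConjugate Pointwise

section Data

variable {G : Type*} [Group G] [Finite G]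

/-- The facts about a character vanishing off two classes, bundled. -/
structure GagolaData (p : ℕ) (χ : Cfsg.IrrCharacter G) (N : Subgroup G) (g₀ : G) : Prop where
  normal : N.Normal
  ne_one : g₀ ≠ 1
  mem : g₀ ∈ N
  supp : ∀ x, x ∈ N ↔ (χ : G → ℂ) x ≠ 0
  isConj : ∀ x ∈ N, x ≠ 1 → IsConj g₀ x
  other : ∀ ψ : Cfsg.IrrCharacter G, ψ ≠ χ → ∀ x ∈ N, (ψ : G → ℂ) x = (ψ : G → ℂ) 1
  order : Cfsg.charDegree (χ : G → ℂ) ^ 2 * ((Subgroup.centralizer ({g₀} : Set G)).index + 1)
      = Nat.card G * (Subgroup.centralizer ({g₀} : Set G)).index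
  pgroup : IsPGroup p N
  comm : ∀ a b : N, a * b = b * a
  pow : ∀ a ∈ N, a ^ p = 1
  cent : ∀ n ∈ N, n ≠ 1 → Nat.card (Subgroup.centralizer ({n} : Set G))
      = p ^ (Nat.card G).factorization p
  min : ∀ K : Subgroup G, K.Normal → K ≠ ⊥ → N ≤ K

theorem gagolaData_of (hG : 2 < Nat.card G) (χ : Cfsg.IrrCharacter G)
    (hχ : Nat.card {C : ConjClasses G // ∃ g ∈ C.carrier, (χ : G → ℂ) g ≠ 0} = 2)
    (p : ℕ) [hp : Fact p.Prime] (N : Subgroup G)
    (hN : ∀ g : G, g ∈ N ↔ (χ : G → ℂ) g ≠ 0) (hNp : IsPGroup p N) :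
    ∃ g₀ : G, GagolaData p χ N g₀ := by
  obtain ⟨g₀, N', p', hNn, hpp, hg₀, hg₀N, hop, hNsupp, hNconj, hother, hfaith, hR1, horder, hNp',
    hel, hmin⟩ := gagola_structure hG χ hχ
  have hNN : N' = N := by
    ext x
    rw [hNsupp, hN]
  subst hNN
  have hpp' : p' = p := by
    obtain ⟨j, hj⟩ := hNp ⟨g₀, hg₀N⟩
    have h1 : g₀ ^ p ^ j = 1 := by
      have := congrArg Subtype.val hj
      simpa using this
    have h2 : p' ∣ p ^ j := by
      rw [← hop]
      exact orderOf_dvd_of_pow_eq_one h1
    exact (Nat.prime_dvd_prime_iff_eq hpp hp.out).mp (hpp.dvd_of_dvd_pow h2)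
  subst hpp'
  have hχc := isCharacter_of_isIrrCharacter χ.2
  have hC := gagola_card_centralizer hχc hNp hNsupp hg₀ hg₀N hNconj horder
  refine ⟨g₀, ⟨hNn, hg₀, hg₀N, hNsupp, hNconj, hother, horder, hNp,
    fun a b => hel.1.is_comm.comm a b, hel.2, ?_, hmin⟩⟩
  intro n hn hn1
  rw [← card_centralizer_eq_of_isConj (hNconj n hn hn1), hC]

end Data

section Conj

variable {G : Type*} [Group G] [Finite G]

/-- If the centralizer of `x` in `D` is small enough, the `D`-conjugates of `x` fill `N x`. -/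
theorem exists_conj_of_card_le (N D : Subgroup G) {x : G} (hxD : x ∈ D)
    (hcomm : ∀ y ∈ D, y * x * y⁻¹ * x⁻¹ ∈ N)
    (hcard : Nat.card (Subgroup.centralizer ({(⟨x, hxD⟩ : D)} : Set D)) * Nat.card N
      ≤ Nat.card D) :
    ∀ n ∈ N, ∃ y ∈ D, y * x * y⁻¹ * x⁻¹ = n := by
  classical
  set x' : D := ⟨x, hxD⟩ with hx'
  set C := Subgroup.centralizer ({x'} : Set D) with hC
  have hindex : Nat.card N ≤ C.index := by
    have h1 := Subgroup.card_mul_index C
    rw [← h1] at hcard
    exact Nat.le_of_mul_le_mul_left hcard Nat.card_pos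
  have hmem : ∀ h : {h : D // IsConj x' h}, ((h : D) : G) * x⁻¹ ∈ N := by
    rintro ⟨h, hh⟩
    obtain ⟨c, hc⟩ := isConj_iff.mp hh
    have := hcomm c c.2
    have hc' : (h : G) = c * x * (c : G)⁻¹ := by
      rw [← hc]
      simp [hx']
    change (h : G) * x⁻¹ ∈ N
    rw [hc']
    exact this
  let f : {h : D // IsConj x' h} → N := fun h => ⟨_, hmem h⟩
  have hf : Function.Injective f := by
    intro h₁ h₂ h12
    have := congrArg Subtype.val h12
    simp only [f] at this
    exact Subtype.ext (Subtype.ext (mul_right_cancel this))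
  have hbij := hf.bijective_of_nat_card_le (by rw [card_isConj_eq_index]; exact hindex)
  intro n hn
  obtain ⟨⟨h, hh⟩, hfh⟩ := hbij.2 ⟨n, hn⟩
  obtain ⟨c, hc⟩ := isConj_iff.mp hh
  refine ⟨c, c.2, ?_⟩
  have h1 := congrArg Subtype.val hfh
  simp only [f] at h1
  rw [← h1, ← hc]
  simp [hx']

variable {p : ℕ} {χ : Cfsg.IrrCharacter G} {N : Subgroup G} {g₀ : G}

/-- Every element of the coset `N x` is conjugate to `x`, for `x` outside `N`. -/
theorem GagolaData.conj_coset (h : GagolaData p χ N g₀) {x : G} (hx : x ∉ N) :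
    ∀ n ∈ N, ∃ y : G, y * x * y⁻¹ * x⁻¹ = n := by
  have := h.normal
  have hχx : (χ : G → ℂ) x = 0 := by
    by_contra h0
    exact hx ((h.supp x).mpr h0)
  have hcard := gagola_card_centralizer_quot χ N h.other hχx
  set D := (Subgroup.centralizer ({(x : G ⧸ N)} : Set (G ⧸ N))).comap (QuotientGroup.mk' N)
    with hD
  have hxD : x ∈ D := by
    rw [hD, Subgroup.mem_comap]
    exact Subgroup.mem_centralizer_singleton_iff.mpr rfl
  have hcomm : ∀ y ∈ D, y * x * y⁻¹ * x⁻¹ ∈ N := by
    intro y hy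
    rw [hD, Subgroup.mem_comap, Subgroup.mem_centralizer_singleton_iff] at hy
    have hy' : (y : G ⧸ N) * (x : G ⧸ N) = (x : G ⧸ N) * (y : G ⧸ N) := hy
    rw [← QuotientGroup.eq_one_iff]
    rw [QuotientGroup.mk_mul, QuotientGroup.mk_mul, QuotientGroup.mk_mul, QuotientGroup.mk_inv,
      QuotientGroup.mk_inv, hy']
    group
  have hDcard : Nat.card D
      = Nat.card (Subgroup.centralizer ({(x : G ⧸ N)} : Set (G ⧸ N))) * Nat.card N := by
    have h1 := Subgroup.index_comap_of_surjective
      (Subgroup.centralizer ({(x : G ⧸ N)} : Set (G ⧸ N))) (QuotientGroup.mk'_surjective N)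
    have h2 := Subgroup.card_mul_index D
    have h3 := Subgroup.card_mul_index (Subgroup.centralizer ({(x : G ⧸ N)} : Set (G ⧸ N)))
    have h4 := Subgroup.card_eq_card_quotient_mul_card_subgroup N
    rw [← hD] at h1
    rw [h1, h4, ← h3] at h2
    have hpos : 0 < (Subgroup.centralizer ({(x : G ⧸ N)} : Set (G ⧸ N))).index :=
      Nat.pos_of_ne_zero Subgroup.index_ne_zero_of_finite
    apply Nat.eq_of_mul_eq_mul_right hpos
    rw [h2]
    ring
  have hle : Nat.card (Subgroup.centralizer ({(⟨x, hxD⟩ : D)} : Set D))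
      ≤ Nat.card (Subgroup.centralizer ({x} : Set G)) := by
    rw [← Subgroup.card_map_of_injective (Subgroup.subtype_injective D)]
    apply Subgroup.card_le_of_le
    rintro _ ⟨c, hc, rfl⟩
    have hc' : c * (⟨x, hxD⟩ : D) = (⟨x, hxD⟩ : D) * c :=
      Subgroup.mem_centralizer_singleton_iff.mp hc
    rw [Subgroup.mem_centralizer_singleton_iff]
    exact congrArg Subtype.val hc'
  have hfin := exists_conj_of_card_le N D hxD hcomm (by
    rw [hDcard, ← hcard]
    exact Nat.mul_le_mul_right _ hle)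
  intro n hn
  obtain ⟨y, -, hy⟩ := hfin n hn
  exact ⟨y, hy⟩

/-- If `N` has a complement, then `N` is a Sylow `p`-subgroup. -/
theorem GagolaData.card_of_complement [Fact p.Prime] (h : GagolaData p χ N g₀) (H : Subgroup G)
    (hH : Subgroup.IsComplement' N H) : Nat.card N = p ^ (Nat.card G).factorization p := by
  have := h.normal
  have hχc := isCharacter_of_isIrrCharacter χ.2
  have hdvd : Nat.card H ∣ Cfsg.charDegree (χ : G → ℂ) := by
    apply card_dvd_charDegree_of_vanish hχc
    intro x hxH hx1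
    by_contra h0
    exact hx1 (Subgroup.disjoint_def.mp hH.disjoint ((h.supp x).mpr h0) hxH)
  have hN := card_eq_index_add_one h.ne_one h.mem h.isConj
  have hGH := hH.card_mul_card
  have hC := h.cent g₀ h.mem h.ne_one
  have hCk := Subgroup.card_mul_index (Subgroup.centralizer ({g₀} : Set G))
  have hord := h.order
  have hk0 : 0 < (Subgroup.centralizer ({g₀} : Set G)).index :=
    Nat.pos_of_ne_zero Subgroup.index_ne_zero_of_finite
  have hd0 : 0 < Cfsg.charDegree (χ : G → ℂ) := charDegree_pos χ.2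
  have hH0 : 0 < Nat.card H := Nat.card_pos
  set k := (Subgroup.centralizer ({g₀} : Set G)).index with hk
  set d := Cfsg.charDegree (χ : G → ℂ) with hd
  obtain ⟨e, he⟩ := hdvd
  have he0 : 0 < e := by
    rcases Nat.eq_zero_or_pos e with h0 | h0
    · rw [h0, mul_zero] at he
      omega
    · exact h0
  -- `|H| ≤ k`
  have hHk : Nat.card H ≤ k := by
    have h1 : d ^ 2 * (k + 1) = (k + 1) * Nat.card H * k := by rw [hord, ← hGH, hN]
    have h2 : d ^ 2 = Nat.card H * k := by
      have : (k + 1) * d ^ 2 = (k + 1) * (Nat.card H * k) := by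
        rw [mul_comm, h1]
        ring
      exact Nat.eq_of_mul_eq_mul_left (Nat.succ_pos k) this
    rw [he] at h2
    have h3 : Nat.card H * (Nat.card H * e ^ 2) = Nat.card H * k := by
      rw [← h2]
      ring
    have h4 : Nat.card H * e ^ 2 = k := Nat.eq_of_mul_eq_mul_left hH0 h3
    calc Nat.card H = Nat.card H * 1 := (mul_one _).symm
      _ ≤ Nat.card H * e ^ 2 := Nat.mul_le_mul_left _ (Nat.one_le_pow _ _ he0)
      _ = k := h4
  -- `p ^ ν ≤ |N|`
  have h5 : p ^ (Nat.card G).factorization p ≤ Nat.card N := by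
    have h6 : p ^ (Nat.card G).factorization p * k = (k + 1) * Nat.card H := by
      rw [← hC, hCk, ← hGH, hN]
    have h7 : p ^ (Nat.card G).factorization p * k ≤ (k + 1) * k := by
      rw [h6]
      exact Nat.mul_le_mul_left _ hHk
    rw [hN]
    exact Nat.le_of_mul_le_mul_right h7 hk0
  obtain P : Sylow p G := default
  have h8 : Nat.card N ≤ p ^ (Nat.card G).factorization p := by
    rw [← P.card_eq_multiplicity]
    exact Subgroup.card_le_of_le (h.pgroup.le_sylow_of_normal P)
  exact le_antisymm h8 h5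

/-- For odd `p`, if `N` is self-centralizing then it has a complement (the centralizer of an
involution). -/
theorem GagolaData.exists_complement_of_odd [hp : Fact p.Prime] (h : GagolaData p χ N g₀)
    (hp2 : p ≠ 2) (hcent : Subgroup.centralizer (N : Set G) ≤ N) :
    ∃ H : Subgroup G, Subgroup.IsComplement' N H := by
  have hNn := h.normal
  have hpodd : Odd p := hp.out.odd_of_ne_two hp2
  have hN := card_eq_index_add_one h.ne_one h.mem h.isConj
  obtain ⟨a, ha⟩ := IsPGroup.iff_card.mp h.pgroup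
  -- `|G|` is even
  have h2G : 2 ∣ Nat.card G := by
    have h1 : Odd (Nat.card N) := by
      rw [ha]
      exact hpodd.pow
    have h2 : Even (Subgroup.centralizer ({g₀} : Set G)).index := by
      rcases Nat.even_or_odd (Subgroup.centralizer ({g₀} : Set G)).index with h3 | h3
      · exact h3
      · exfalso
        rw [hN] at h1
        have : Even ((Subgroup.centralizer ({g₀} : Set G)).index + 1) := h3.add_one
        exact (Nat.not_even_iff_odd.mpr h1) this
    exact (even_iff_two_dvd.mp h2).trans (Subgroup.index_dvd_card _)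
  have : Fact (Nat.Prime 2) := ⟨Nat.prime_two⟩
  obtain ⟨z, hz⟩ := exists_prime_orderOf_dvd_card' 2 h2G
  have hzz : z * z = 1 := by
    have := pow_orderOf_eq_one z
    rw [hz, sq] at this
    exact this
  have hzinv : z⁻¹ = z := inv_eq_of_mul_eq_one_left hzz
  -- `z` inverts `N`
  have hinv : ∀ n ∈ N, z * n * z⁻¹ = n⁻¹ := by
    intro n hn
    have hzn : z * n * z⁻¹ ∈ N := hNn.conj_mem n hn z
    have hcomm : n * (z * n * z⁻¹) = (z * n * z⁻¹) * n :=
      congrArg Subtype.val (h.comm ⟨n, hn⟩ ⟨_, hzn⟩)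
    set m := n * (z * n * z⁻¹) with hm
    have hmN : m ∈ N := N.mul_mem hn hzn
    have hzm : z * m = m * z := by
      have h1 : z * m * z⁻¹ = m := by
        calc z * m * z⁻¹ = (z * n * z⁻¹) * (z * z * n * (z * z)⁻¹) := by rw [hm]; group
          _ = (z * n * z⁻¹) * n := by rw [hzz]; group
          _ = m := hcomm.symm
      calc z * m = z * m * z⁻¹ * z := by group
        _ = m * z := by rw [h1]
    by_cases hm1 : m = 1
    · rw [hm] at hm1
      exact (eq_inv_of_mul_eq_one_right hm1)
    · exfalso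
      have hzc : z ∈ Subgroup.centralizer ({m} : Set G) :=
        Subgroup.mem_centralizer_singleton_iff.mpr hzm
      have h1 : orderOf z ∣ Nat.card (Subgroup.centralizer ({m} : Set G)) := by
        have := orderOf_dvd_natCard (⟨z, hzc⟩ : Subgroup.centralizer ({m} : Set G))
        rwa [Subgroup.orderOf_mk] at this
      rw [hz, h.cent m hmN hm1] at h1
      have h2 : 2 ∣ p := Nat.Prime.dvd_of_dvd_pow Nat.prime_two h1
      exact hp2 ((Nat.prime_dvd_prime_iff_eq Nat.prime_two hp.out).mp h2).symm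
  refine ⟨Subgroup.centralizer ({z} : Set G), ?_⟩
  apply Subgroup.isComplement'_of_disjoint_and_mul_eq_univ
  · rw [Subgroup.disjoint_def]
    intro n hn hnz
    rw [Subgroup.mem_centralizer_singleton_iff] at hnz
    have h1 : n⁻¹ = n := by
      rw [← hinv n hn]
      calc z * n * z⁻¹ = n * z * z⁻¹ := by rw [hnz]
        _ = n := by group
    have h2 : n ^ 2 = 1 := by
      rw [sq]
      nth_rewrite 1 [← h1]
      exact inv_mul_cancel n
    have h3 : n ^ p = 1 := h.pow n hn
    have h4 : orderOf n ∣ Nat.gcd 2 p :=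
      Nat.dvd_gcd (orderOf_dvd_of_pow_eq_one h2) (orderOf_dvd_of_pow_eq_one h3)
    have h5 : Nat.gcd 2 p = 1 := by
      have : Nat.Coprime 2 p := (Nat.coprime_primes Nat.prime_two hp.out).mpr (Ne.symm hp2)
      exact this
    rw [h5, Nat.dvd_one] at h4
    exact orderOf_eq_one_iff.mp h4
  · rw [Set.eq_univ_iff_forall]
    intro g
    set c := g * z * g⁻¹ * z⁻¹ with hc
    have hcN : c ∈ N := by
      apply hcent
      rw [Subgroup.mem_centralizer_iff]
      intro n hn
      have hn1 : g⁻¹ * n * g ∈ N := by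
        have := hNn.conj_mem n hn g⁻¹
        simpa using this
      have h1 : z * (g⁻¹ * n * g) * z⁻¹ = (g⁻¹ * n * g)⁻¹ := hinv _ hn1
      have h2 : z⁻¹ * n * z = n⁻¹ := by
        have := hinv n hn
        rw [hzinv] at this ⊢
        exact this
      have h3 : c * n * c⁻¹ = n := by
        calc c * n * c⁻¹ = g * (z * (g⁻¹ * (z⁻¹ * n * z) * g) * z⁻¹) * g⁻¹ := by
              rw [hc]; group
          _ = g * (z * (g⁻¹ * n * g)⁻¹ * z⁻¹) * g⁻¹ := by rw [h2]; group
          _ = g * ((g⁻¹ * n * g)⁻¹)⁻¹ * g⁻¹ := by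
              have h4 := hinv _ (N.inv_mem hn1)
              rw [h4]
          _ = n := by group
      calc n * c = c * n * c⁻¹ * c := by rw [h3]
        _ = c * n := by group
    obtain ⟨j, hj⟩ := hpodd
    set m := c ^ (j + 1) with hm
    have hmN : m ∈ N := N.pow_mem hcN _
    have hm2 : m * m = c := by
      rw [hm, ← pow_add]
      have : j + 1 + (j + 1) = p + 1 := by omega
      rw [this, pow_succ, h.pow c hcN, one_mul]
    have hmz : m * z * m⁻¹ = g * z * g⁻¹ := by
      have h1 : z * m⁻¹ * z⁻¹ = (m⁻¹)⁻¹ := hinv _ (N.inv_mem hmN)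
      calc m * z * m⁻¹ = m * (z * m⁻¹ * z⁻¹) * z := by group
        _ = m * m * z := by rw [h1, inv_inv]
        _ = c * z := by rw [hm2]
        _ = g * z * g⁻¹ := by rw [hc]; group
    refine ⟨m, hmN, m⁻¹ * g, ?_, by group⟩
    rw [SetLike.mem_coe, Subgroup.mem_centralizer_singleton_iff]
    calc m⁻¹ * g * z = m⁻¹ * (g * z * g⁻¹) * g := by group
      _ = m⁻¹ * (m * z * m⁻¹) * g := by rw [hmz]
      _ = z * (m⁻¹ * g) := by group

/-- The homomorphism `n ↦ u⁻¹ n u * n` of an abelian normal subgroup. -/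
noncomputable def commHom (N : Subgroup G) [N.Normal] (hNc : ∀ a b : N, a * b = b * a) (u : G) :
    N →* N :=
  MonoidHom.mk' (fun n => MulAut.conjNormal u⁻¹ n * n) (by
    intro a b
    rw [map_mul]
    calc MulAut.conjNormal u⁻¹ a * MulAut.conjNormal u⁻¹ b * (a * b)
        = MulAut.conjNormal u⁻¹ a * (MulAut.conjNormal u⁻¹ b * a) * b := by group
      _ = MulAut.conjNormal u⁻¹ a * (a * MulAut.conjNormal u⁻¹ b) * b := by
          rw [hNc (MulAut.conjNormal u⁻¹ b) a]
      _ = MulAut.conjNormal u⁻¹ a * a * (MulAut.conjNormal u⁻¹ b * b) := by group)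

omit [Finite G] in
theorem commHom_apply (N : Subgroup G) [N.Normal] (hNc : ∀ a b : N, a * b = b * a) (u : G)
    (n : N) : ((commHom N hNc u n : N) : G) = u⁻¹ * n * u * n := by
  change ((MulAut.conjNormal u⁻¹ n * n : N) : G) = _
  rw [Subgroup.coe_mul, MulAut.conjNormal_apply, inv_inv]

/-- For `p = 2`, if `N` contains every normal `2`-subgroup then `N` is a Sylow `2`-subgroup. -/
theorem GagolaData.card_of_two (h : GagolaData 2 χ N g₀)
    (hcore : ∀ K : Subgroup G, K.Normal → IsPGroup 2 K → K ≤ N) :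
    Nat.card N = 2 ^ (Nat.card G).factorization 2 := by
  have hNn := h.normal
  have : Fact (Nat.Prime 2) := ⟨Nat.prime_two⟩
  by_contra hne
  obtain ⟨a, ha⟩ := IsPGroup.iff_card.mp h.pgroup
  have h2Q : 2 ∣ Nat.card (G ⧸ N) := by
    have h1 := Subgroup.card_eq_card_quotient_mul_card_subgroup N
    obtain P : Sylow 2 G := default
    have hle := Subgroup.card_le_of_le (h.pgroup.le_sylow_of_normal P)
    rw [P.card_eq_multiplicity, ha] at hle
    have hlt : a < (Nat.card G).factorization 2 := by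
      have h2 : a ≤ (Nat.card G).factorization 2 :=
        (Nat.pow_le_pow_iff_right (by norm_num)).mp hle
      rcases h2.lt_or_eq with h3 | h3
      · exact h3
      · exfalso
        apply hne
        rw [ha, h3]
    have hdvd : 2 ^ (a + 1) ∣ Nat.card G :=
      (Nat.pow_dvd_pow 2 hlt).trans (Nat.ordProj_dvd _ _)
    rw [h1, ha, pow_succ, mul_comm] at hdvd
    exact Nat.dvd_of_mul_dvd_mul_right (pow_pos two_pos a) hdvd
  obtain ⟨t, ht⟩ := exists_prime_orderOf_dvd_card' 2 h2Q
  have htt : t * t = 1 := by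
    have := pow_orderOf_eq_one t
    rw [ht, sq] at this
    exact this
  have ht1 : t ≠ 1 := by
    intro h1
    rw [h1, orderOf_one] at ht
    norm_num at ht
  have hO : ∀ K : Subgroup (G ⧸ N), K.Normal → IsPGroup 2 K → t ∉ K := by
    intro K hK hK2 htK
    have hcomap : IsPGroup 2 (K.comap (QuotientGroup.mk' N)) := by
      apply hK2.comap_of_ker_isPGroup
      rw [QuotientGroup.ker_mk']
      exact h.pgroup
    have hle := hcore _ (hK.comap _) hcomap
    obtain ⟨x, rfl⟩ := QuotientGroup.mk_surjective t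
    have hx : x ∈ N := hle (by rw [Subgroup.mem_comap]; exact htK)
    exact ht1 ((QuotientGroup.eq_one_iff x).mpr hx)
  obtain ⟨g', b, hw1, hwodd, -⟩ := Cfsg.Agent.Lib.Helper64.exists_odd_inverted t htt hO
  obtain ⟨x, rfl⟩ := QuotientGroup.mk_surjective t
  obtain ⟨g, rfl⟩ := QuotientGroup.mk_surjective g'
  set y := g * x * g⁻¹ with hy
  have hxN : x ∉ N := fun hx => ht1 ((QuotientGroup.eq_one_iff x).mpr hx)
  have hxx : x * x ∈ N := by
    rw [← QuotientGroup.eq_one_iff]
    exact htt
  have hyy : y * y ∈ N := by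
    have h1 : y * y = g * (x * x) * g⁻¹ := by rw [hy]; group
    rw [h1]
    exact hNn.conj_mem _ hxx g
  have hsq : ∀ n ∈ N, n * n = 1 := by
    intro n hn
    have := h.pow n hn
    rwa [sq] at this
  -- range ≤ ker
  have hF1 : ∀ u : G, u * u ∈ N → (commHom N h.comm u).range ≤ (commHom N h.comm u).ker := by
    rintro u hu _ ⟨n, rfl⟩
    rw [MonoidHom.mem_ker]
    apply Subtype.ext
    rw [commHom_apply, commHom_apply, Subgroup.coe_one]
    have hr : u⁻¹ * (n : G) * u ∈ N := by
      have := hNn.conj_mem n n.2 u⁻¹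
      simpa using this
    have hs : (u * u)⁻¹ * (n : G) * (u * u) = n := by
      have h1 : (u * u) * (n : G) = n * (u * u) := congrArg Subtype.val (h.comm ⟨u * u, hu⟩ n)
      calc (u * u)⁻¹ * (n : G) * (u * u) = (u * u)⁻¹ * ((n : G) * (u * u)) := by group
        _ = (u * u)⁻¹ * ((u * u) * (n : G)) := by rw [h1]
        _ = n := by group
    calc u⁻¹ * (u⁻¹ * (n : G) * u * n) * u * (u⁻¹ * (n : G) * u * n)
        = ((u * u)⁻¹ * (n : G) * (u * u)) * ((u⁻¹ * (n : G) * u) * (u⁻¹ * (n : G) * u)) * n := by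
          group
      _ = (n : G) * 1 * n := by rw [hs, hsq _ hr]
      _ = 1 := by rw [mul_one, hsq _ n.2]
  -- elements of the kernel commute with `u`
  have hF2 : ∀ u : G, ∀ n : N, n ∈ (commHom N h.comm u).ker → u * (n : G) = n * u := by
    intro u n hn
    rw [MonoidHom.mem_ker] at hn
    have h1 : u⁻¹ * (n : G) * u * n = 1 := by
      rw [← commHom_apply N h.comm u n, hn, Subgroup.coe_one]
    have h2 : u⁻¹ * (n : G) * u = n := by
      have h3 : u⁻¹ * (n : G) * u = (n : G)⁻¹ := eq_inv_of_mul_eq_one_left h1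
      have h4 : (n : G)⁻¹ = n := inv_eq_of_mul_eq_one_left (hsq _ n.2)
      rw [h3, h4]
    calc u * (n : G) = u * (u⁻¹ * (n : G) * u) := by rw [h2]
      _ = n * u := by group
  -- the kernels meet trivially
  have hF3 : Disjoint (commHom N h.comm x).ker (commHom N h.comm y).ker := by
    rw [Subgroup.disjoint_def]
    intro n hnx hny
    by_contra hn1
    have hn1' : (n : G) ≠ 1 := fun h0 => hn1 (Subtype.ext h0)
    have hxc : x ∈ Subgroup.centralizer ({(n : G)} : Set G) :=
      Subgroup.mem_centralizer_singleton_iff.mpr (hF2 x n hnx)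
    have hyc : y ∈ Subgroup.centralizer ({(n : G)} : Set G) :=
      Subgroup.mem_centralizer_singleton_iff.mpr (hF2 y n hny)
    set w := (x * y) ^ 2 ^ b with hw
    have hwc : w ∈ Subgroup.centralizer ({(n : G)} : Set G) :=
      Subgroup.pow_mem _ (Subgroup.mul_mem _ hxc hyc) _
    have h1 : orderOf w ∣ 2 ^ (Nat.card G).factorization 2 := by
      have := orderOf_dvd_natCard (⟨w, hwc⟩ : Subgroup.centralizer ({(n : G)} : Set G))
      rwa [Subgroup.orderOf_mk, h.cent _ n.2 hn1'] at this
    have h2 : ((w : G) : G ⧸ N)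
        = ((x : G ⧸ N) * ((g : G ⧸ N) * (x : G ⧸ N) * (g : G ⧸ N)⁻¹)) ^ 2 ^ b := by
      rw [hw, hy]
      rfl
    have h3 : orderOf ((w : G) : G ⧸ N) ∣ orderOf w := orderOf_map_dvd (QuotientGroup.mk' N) w
    rw [← h2] at hw1 hwodd
    have h4 : orderOf ((w : G) : G ⧸ N) = 1 :=
      Nat.Coprime.eq_one_of_dvd (Nat.Coprime.pow_right _ hwodd.coprime_two_right)
        (h3.trans h1)
    exact hw1 (orderOf_eq_one_iff.mp h4)
  -- counting
  have hAx : Nat.card (commHom N h.comm x).ker * Nat.card (commHom N h.comm x).range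
      = Nat.card N := by
    rw [← Subgroup.index_ker]
    exact Subgroup.card_mul_index _
  have hAy : Nat.card (commHom N h.comm y).ker * Nat.card (commHom N h.comm y).range
      = Nat.card N := by
    rw [← Subgroup.index_ker]
    exact Subgroup.card_mul_index _
  have hRx := Subgroup.card_le_of_le (hF1 x hxx)
  have hRy := Subgroup.card_le_of_le (hF1 y hyy)
  have hAB : Nat.card (commHom N h.comm x).ker * Nat.card (commHom N h.comm y).ker
      ≤ Nat.card N := by
    rw [← Nat.card_prod]
    exact Nat.card_le_card_of_injective _ (Subgroup.mul_injective_of_disjoint hF3)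
  have hApos : 0 < Nat.card (commHom N h.comm x).ker := Nat.card_pos
  have hBpos : 0 < Nat.card (commHom N h.comm y).ker := Nat.card_pos
  have hrange : (commHom N h.comm x).range = (commHom N h.comm x).ker := by
    apply Subgroup.eq_of_le_of_card_ge (hF1 x hxx)
    have h1 : Nat.card (commHom N h.comm y).ker ≤ Nat.card (commHom N h.comm x).range := by
      rw [← hAx] at hAB
      exact Nat.le_of_mul_le_mul_left hAB hApos
    have h2 : Nat.card (commHom N h.comm x).ker ≤ Nat.card (commHom N h.comm y).range := by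
      rw [← hAy, mul_comm] at hAB
      exact Nat.le_of_mul_le_mul_left hAB hBpos
    omega
  -- conjugates of `x` in its coset
  have hcoset : ∀ n ∈ N, ∃ y' : G, y' * x * y'⁻¹ = x * n := by
    intro n hn
    obtain ⟨y', hy'⟩ := h.conj_coset hxN (x * n * x⁻¹) (hNn.conj_mem n hn x)
    refine ⟨y', ?_⟩
    calc y' * x * y'⁻¹ = y' * x * y'⁻¹ * x⁻¹ * x := by group
      _ = x * n * x⁻¹ * x := by rw [hy']
      _ = x * n := by group
  -- `x * x = 1`
  have hx2 : x * x = 1 := by
    have hs : (⟨x * x, hxx⟩ : N) ∈ (commHom N h.comm x).range := by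
      rw [hrange, MonoidHom.mem_ker]
      apply Subtype.ext
      rw [commHom_apply, Subgroup.coe_one]
      change x⁻¹ * (x * x) * x * (x * x) = 1
      have := hsq _ hxx
      calc x⁻¹ * (x * x) * x * (x * x) = (x * x) * (x * x) := by group
        _ = 1 := this
    obtain ⟨n, hn⟩ := hs
    have hn' : x⁻¹ * (n : G) * x * n = x * x := by
      rw [← commHom_apply N h.comm x n, hn]
    obtain ⟨y', hy'⟩ := hcoset n n.2
    have h1 : (x * n) * (x * n) = 1 := by
      calc (x * (n : G)) * (x * n) = (x * x) * (x⁻¹ * (n : G) * x * n) := by group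
        _ = (x * x) * (x * x) := by rw [hn']
        _ = 1 := hsq _ hxx
    rw [← hy'] at h1
    calc x * x = y'⁻¹ * ((y' * x * y'⁻¹) * (y' * x * y'⁻¹)) * y' := by group
      _ = 1 := by rw [h1]; group
  have hxinv : x⁻¹ = x := inv_eq_of_mul_eq_one_left hx2
  have hker : (commHom N h.comm x).ker = ⊤ := by
    rw [eq_top_iff]
    intro n _
    rw [MonoidHom.mem_ker]
    apply Subtype.ext
    rw [commHom_apply, Subgroup.coe_one, hxinv]
    obtain ⟨y', hy'⟩ := hcoset n n.2
    calc x * (n : G) * x * n = (x * n) * (x * n) := by group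
      _ = (y' * x * y'⁻¹) * (y' * x * y'⁻¹) := by rw [hy']
      _ = y' * (x * x) * y'⁻¹ := by group
      _ = 1 := by rw [hx2]; group
  have hNcard : Nat.card N = 1 := by
    have h1 : Nat.card (commHom N h.comm x).range = Nat.card (commHom N h.comm x).ker := by
      rw [hrange]
    rw [h1, hker, Subgroup.card_top] at hAx
    have hNpos : 0 < Nat.card N := Nat.card_pos
    have : Nat.card N * Nat.card N = Nat.card N * 1 := by rw [hAx, mul_one]
    exact Nat.eq_of_mul_eq_mul_left hNpos this
  have := Subgroup.eq_bot_of_card_eq N hNcard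
  have hg := h.mem
  rw [this, Subgroup.mem_bot] at hg
  exact h.ne_one hg

/-- If `N` is a Sylow `p`-subgroup then the group is a doubly transitive Frobenius group with
kernel `N`. -/
theorem GagolaData.exists_frobenius [Fact p.Prime] (h : GagolaData p χ N g₀)
    (hG : 2 < Nat.card G) (hcard : Nat.card N = p ^ (Nat.card G).factorization p) :
    ∃ H : Subgroup G, Cfsg.IsFrobeniusComplement H ∧ Cfsg.frobeniusKernel H = (N : Set G) ∧
      Nat.card H + 1 = Nat.card N := by
  have hNn := h.normal
  have hN := card_eq_index_add_one h.ne_one h.mem h.isConj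
  have hC := h.cent g₀ h.mem h.ne_one
  have hCk := Subgroup.card_mul_index (Subgroup.centralizer ({g₀} : Set G))
  have hNpos : 0 < Nat.card N := Nat.card_pos
  set k := (Subgroup.centralizer ({g₀} : Set G)).index with hk
  have hidx : N.index = k := by
    have h1 := Subgroup.card_mul_index N
    rw [← hCk, hC, ← hcard] at h1
    exact Nat.eq_of_mul_eq_mul_left hNpos h1
  have hcop : Nat.Coprime (Nat.card N) N.index := by
    rw [hidx, hN]
    simp
  obtain ⟨H, hH⟩ := Subgroup.exists_right_complement'_of_coprime hcop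
  have hHcard : Nat.card H = k := by
    have h1 := hH.card_mul_card
    have h2 := Subgroup.card_mul_index N
    rw [← h2, hidx] at h1
    exact Nat.eq_of_mul_eq_mul_left hNpos h1
  have hH1 : H ≠ ⊥ := by
    rintro rfl
    rw [Subgroup.card_bot] at hHcard
    have h1 := hH.card_mul_card
    rw [Subgroup.card_bot, hN, ← hHcard] at h1
    omega
  have hN1 : N ≠ ⊥ := by
    intro h0
    have hg := h.mem
    rw [h0, Subgroup.mem_bot] at hg
    exact h.ne_one hg
  have hcent : ∀ x ∈ N, x ≠ 1 → ∀ c : G, c * x = x * c → c ∈ N := by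
    intro x hx hx1 c hcx
    have hle : N ≤ Subgroup.centralizer ({x} : Set G) := by
      intro n hn
      rw [Subgroup.mem_centralizer_singleton_iff]
      exact congrArg Subtype.val (h.comm ⟨n, hn⟩ ⟨x, hx⟩)
    have heq : N = Subgroup.centralizer ({x} : Set G) := by
      apply Subgroup.eq_of_le_of_card_ge hle
      rw [h.cent x hx hx1, hcard]
    rw [heq]
    exact Subgroup.mem_centralizer_singleton_iff.mpr hcx
  obtain ⟨hF, hK⟩ := frobenius_of_centralizer N H hH hH1 hN1 hcent
  exact ⟨H, hF, hK, by rw [hHcard, hN]⟩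

end Conj

section Converse

variable {G : Type*} [Group G] [Finite G]

/-- If `N` is a normal `p`-subgroup which is the Frobenius kernel of a complement of order
`|N| - 1`, then `N` is the `p`-core. -/
theorem pCore_eq_of_frobenius {p : ℕ} [hp : Fact p.Prime] (N : Subgroup G) [hNn : N.Normal]
    (hNp : IsPGroup p N) (H : Subgroup G)
    (hK : Cfsg.frobeniusKernel H = (N : Set G)) (hcard : Nat.card H + 1 = Nat.card N) :
    N = Cfsg.pCore p G := by
  have hcoreP : IsPGroup p (Cfsg.pCore p G) :=
    Sylow.sSup_of_normal _ (fun K hK => hK.2) (fun K hK => hK.1)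
  have hcoreN : (Cfsg.pCore p G).Normal := by
    unfold Cfsg.pCore
    refine ⟨fun n hn g => ?_⟩
    have hle : sSup {K : Subgroup G | K.Normal ∧ IsPGroup p K}
        ≤ (sSup {K : Subgroup G | K.Normal ∧ IsPGroup p K}).comap (MulAut.conj g).toMonoidHom := by
      apply sSup_le
      rintro K ⟨hKn, hKp⟩ x hx
      rw [Subgroup.mem_comap]
      have : K ≤ sSup {K : Subgroup G | K.Normal ∧ IsPGroup p K} := le_sSup ⟨hKn, hKp⟩
      exact this (hKn.conj_mem x hx g)
    exact hle hn
  have hNle : N ≤ Cfsg.pCore p G := le_sSup ⟨hNn, hNp⟩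
  apply le_antisymm hNle
  intro x hx
  by_contra hxN
  have hxK : x ∉ Cfsg.frobeniusKernel H := by
    rw [hK]
    exact hxN
  unfold Cfsg.frobeniusKernel at hxK
  simp only [Set.mem_ofPred_eq, not_or, not_forall, not_not] at hxK
  obtain ⟨hx1, g, hg⟩ := hxK
  obtain ⟨y, hyH, hy⟩ := (Subgroup.mem_smul_pointwise_iff_exists x (MulAut.conj g) H).mp hg
  rw [MulAut.smul_def, MulAut.conj_apply] at hy
  have hycore : y ∈ Cfsg.pCore p G := by
    have h1 : y = g⁻¹ * x * g := by rw [← hy]; group
    rw [h1]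
    have := hcoreN.conj_mem x hx g⁻¹
    simpa using this
  obtain ⟨j, hj⟩ := hcoreP ⟨y, hycore⟩
  have hj' : y ^ p ^ j = 1 := by
    have := congrArg Subtype.val hj
    simpa using this
  have h1 : orderOf y ∣ p ^ j := orderOf_dvd_of_pow_eq_one hj'
  have h2 : orderOf y ∣ Nat.card H := by
    have := orderOf_dvd_natCard (⟨y, hyH⟩ : H)
    rwa [Subgroup.orderOf_mk] at this
  obtain ⟨a, ha⟩ := IsPGroup.iff_card.mp hNp
  have ha0 : a ≠ 0 := by
    rintro rfl
    rw [pow_zero] at ha
    have : 0 < Nat.card H := Nat.card_pos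
    omega
  have hpH : ¬ p ∣ Nat.card H := by
    intro hdvd
    have h3 : p ∣ Nat.card H + 1 := by
      rw [hcard, ha]
      exact dvd_pow_self p ha0
    have h4 : p ∣ 1 := (Nat.dvd_add_right hdvd).mp h3
    exact hp.out.one_lt.ne' (Nat.dvd_one.mp h4)
  have hcop : Nat.Coprime (p ^ j) (Nat.card H) :=
    Nat.Coprime.pow_left _ ((Nat.Prime.coprime_iff_not_dvd hp.out).mpr hpH)
  have h5 : orderOf y = 1 := Nat.eq_one_of_dvd_coprimes hcop h1 h2
  have hy1 : y = 1 := orderOf_eq_one_iff.mp h5
  apply hx1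
  rw [← hy, hy1]
  group

/-- The support of a character vanishing off two classes is the `p`-core if and only if the
group is a doubly transitive Frobenius group with that kernel. -/
theorem gagola_pCore_iff_frobenius (hG : 2 < Nat.card G) (χ : Cfsg.IrrCharacter G)
    (hχ : Nat.card {C : ConjClasses G // ∃ g ∈ C.carrier, (χ : G → ℂ) g ≠ 0} = 2)
    (p : ℕ) [hp : Fact p.Prime] (N : Subgroup G) [hNn : N.Normal]
    (hN : ∀ g : G, g ∈ N ↔ (χ : G → ℂ) g ≠ 0) (hNp : IsPGroup p N) :
    N = Cfsg.pCore p G ↔ ∃ H : Subgroup G, Cfsg.IsFrobeniusComplement H ∧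
      Cfsg.frobeniusKernel H = (N : Set G) ∧ Nat.card H + 1 = Nat.card N := by
  obtain ⟨g₀, h⟩ := gagolaData_of hG χ hχ p N hN hNp
  constructor
  · intro hNO
    have hcore : ∀ K : Subgroup G, K.Normal → IsPGroup p K → K ≤ N := by
      intro K hKn hKp
      rw [hNO]
      exact le_sSup ⟨hKn, hKp⟩
    have hcard : Nat.card N = p ^ (Nat.card G).factorization p := by
      by_cases hp2 : p = 2
      · subst hp2
        exact h.card_of_two hcore
      · have hcent : Subgroup.centralizer (N : Set G) ≤ N := by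
          apply hcore _ inferInstance
          have hle : Subgroup.centralizer (N : Set G) ≤ Subgroup.centralizer ({g₀} : Set G) :=
            Subgroup.centralizer_le (Set.singleton_subset_iff.mpr h.mem)
          exact (IsPGroup.of_card (h.cent g₀ h.mem h.ne_one)).to_le hle
        obtain ⟨H, hH⟩ := h.exists_complement_of_odd hp2 hcent
        exact h.card_of_complement H hH
    exact h.exists_frobenius hG hcard
  · rintro ⟨H, -, hK, hcard⟩
    exact pCore_eq_of_frobenius N hNp H hK hcard

end Converse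

end Cfsg.Agent.Lib.Helper80
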