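import Mathlib
import Cfsg.Prelude.Def_Characters
import Cfsg.Prelude.Def_Blocks
import Cfsg.Agent.Lib.Helper80.Orthogonality
import Cfsg.Agent.Lib.Helper80.OneDegree

/-!
# Characters over a faithful linear character of a central subgroup

For a central subgroup `N` of `G` and a faithful linear character `lam` of `N`, the number of
irreducible characters of `G` lying over `lam` is the number of "good" conjugacy classes of
`G ⧸ N`.  Both numbers are the dimension of the space of class functions `f` on `G` with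
`f (z * g) = lam z * f g` for `z ∈ N`.
-/

set_option autoImplicit false
set_option linter.style.haveILetI false

open scoped ComplexConjugate

namespace Cfsg.Agent.Lib.Helper80

universe u

section GoodClasses

variable {G : Type u} [Group G] (N : Subgroup G)

/-- A faithful linear character of `N`, as a bare function. -/
structure CentralLin (lam : N → ℂ) : Prop where
  one : lam 1 = 1
  mul : ∀ a b, lam (a * b) = lam a * lam b
  norm : ∀ a, ‖lam a‖ = 1
  faith : ∀ a, lam a = 1 → a = 1

/-- The class functions that transform by `lam` under translation by `N`. -/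
def twistSubmodule (lam : N → ℂ) : Submodule ℂ (G → ℂ) where
  carrier := {f | Cfsg.IsClassFunction G f ∧ ∀ (z : N) (g : G), f ((z : G) * g) = lam z * f g}
  add_mem' := by
    rintro f₁ f₂ ⟨h1, h1'⟩ ⟨h2, h2'⟩
    refine ⟨fun g h => ?_, fun z g => ?_⟩
    · simp only [Pi.add_apply]
      rw [h1 g h, h2 g h]
    · simp only [Pi.add_apply]
      rw [h1' z g, h2' z g, mul_add]
  zero_mem' := ⟨fun g h => rfl, fun z g => by simp⟩
  smul_mem' := by
    rintro c f ⟨h1, h1'⟩
    refine ⟨fun g h => ?_, fun z g => ?_⟩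
    · simp only [Pi.smul_apply, smul_eq_mul]
      rw [h1 g h]
    · simp only [Pi.smul_apply, smul_eq_mul]
      rw [h1' z g]
      ring

theorem mem_twistSubmodule (lam : N → ℂ) (f : G → ℂ) :
    f ∈ twistSubmodule N lam ↔
      Cfsg.IsClassFunction G f ∧ ∀ (z : N) (g : G), f ((z : G) * g) = lam z * f g :=
  Iff.rfl

theorem eq_of_mul_conj_eq_one {a b : ℂ} (h : a * conj b = 1) (hb : ‖b‖ = 1) : a = b := by
  have h1 : conj b * b = 1 := by
    rw [Complex.conj_mul', hb]
    simp
  calc a = a * (conj b * b) := by rw [h1, mul_one]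
    _ = (a * conj b) * b := by ring
    _ = b := by rw [h, one_mul]

variable {N}

/-- An irreducible character of an abelian (here: central) subgroup which is faithful is a
faithful linear character. -/
theorem centralLin_of_irr [Finite G] (hN : N ≤ Subgroup.center G) (ψ : Cfsg.IrrCharacter ↥N)
    (hfaith : ∀ n : ↥N, (ψ : ↥N → ℂ) n = (ψ : ↥N → ℂ) 1 → n = 1) :
    CentralLin N (ψ : N → ℂ) := by
  classical
  haveI : Fintype N := Fintype.ofFinite N
  have hcen : ∀ z : N, z ∈ Subgroup.center ↥N := by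
    intro z
    rw [Subgroup.mem_center_iff]
    intro g
    apply Subtype.ext
    simp only [Subgroup.coe_mul]
    exact Subgroup.mem_center_iff.mp (hN z.2) g.1
  have hnorm : ∀ z : N, ‖(ψ : N → ℂ) z‖ = ‖(ψ : N → ℂ) 1‖ := fun z => norm_char_central ψ.2 (hcen z)
  have hsum := sum_norm_sq_eq_card ψ.2
  have hsum2 : ∑ g : N, ‖(ψ : N → ℂ) g‖ ^ 2 = (Nat.card N : ℝ) * ‖(ψ : N → ℂ) 1‖ ^ 2 := by
    rw [Finset.sum_congr rfl (fun g _ => by rw [hnorm g])]
    simp [Nat.card_eq_fintype_card]
  have hpos : (0 : ℝ) < (Nat.card N : ℝ) := by exact_mod_cast Nat.card_pos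
  have hone : ‖(ψ : N → ℂ) 1‖ ^ 2 = 1 := by
    rw [hsum2] at hsum
    have := mul_right_cancel₀ hpos.ne' (by rw [mul_comm, hsum, one_mul] :
      ‖(ψ : N → ℂ) 1‖ ^ 2 * (Nat.card N : ℝ) = 1 * (Nat.card N : ℝ))
    exact this
  have hdeg := char_one_eq_charDegree (isCharacter_of_isIrrCharacter ψ.2)
  have hdeg1 : Cfsg.charDegree (ψ : N → ℂ) = 1 := by
    rw [hdeg] at hone
    simp only [Complex.norm_natCast] at hone
    have h2 : ((Cfsg.charDegree (ψ : N → ℂ) : ℕ) : ℝ) ^ 2 = 1 := hone
    have h3 : (Cfsg.charDegree (ψ : N → ℂ)) ^ 2 = 1 := by exact_mod_cast h2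
    rcases Nat.pow_eq_one.mp h3 with h4 | h4
    · exact h4
    · omega
  have hψ1 : (ψ : N → ℂ) 1 = 1 := by rw [hdeg, hdeg1]; simp
  have hmul : ∀ a b : N, (ψ : N → ℂ) (a * b) = (ψ : N → ℂ) a * (ψ : N → ℂ) b := by
    intro a b
    obtain ⟨ω, -, h⟩ := central_char_mul ψ.2 (hcen a)
    have h1 := h 1
    rw [mul_one, hψ1, mul_one] at h1
    rw [h b, h1]
  refine ⟨hψ1, hmul, fun a => ?_, fun a ha => hfaith a (by rw [ha, hψ1])⟩
  rw [hnorm a, hψ1]
  simp

variable [Fintype G] [Fintype N] {lam : N → ℂ}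

/-- An irreducible character lies over `lam` iff it is in the twisted space. -/
theorem classInner_res_ne_zero_iff (hN : N ≤ Subgroup.center G) (hlam : CentralLin N lam)
    {χ : G → ℂ} (hχ : Cfsg.IsIrrCharacter G χ) :
    Cfsg.classInner (fun n : ↥N => χ n) lam ≠ 0 ↔ χ ∈ twistSubmodule N lam := by
  have hcardne : (Nat.card N : ℂ) ≠ 0 := by exact_mod_cast (Nat.card_pos (α := N)).ne'
  constructor
  · intro hne
    by_contra hW
    apply hne
    rw [mem_twistSubmodule] at hW
    push Not at hW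
    obtain ⟨z, g, hzg⟩ := hW (isClassFunction_of_isCharacter (isCharacter_of_isIrrCharacter hχ))
    obtain ⟨ω, hω, h⟩ := central_char_mul hχ (hN z.2)
    have hωne : ω * conj (lam z) ≠ 1 := by
      intro h1
      have := eq_of_mul_conj_eq_one h1 (hlam.norm z)
      rw [h g, this] at hzg
      exact hzg rfl
    have hS : ∑ n : N, χ n * conj (lam n) = ω * conj (lam z) * ∑ n : N, χ n * conj (lam n) := by
      refine (Fintype.sum_equiv (Equiv.mulLeft z) (fun n : N => χ ↑(z * n) * conj (lam (z * n)))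
        (fun n => χ ↑n * conj (lam n)) (fun n => rfl)).symm.trans ?_
      rw [Finset.mul_sum]
      refine Finset.sum_congr rfl (fun n _ => ?_)
      simp only [Subgroup.coe_mul]
      rw [h, hlam.mul, map_mul]
      ring
    have hS0 : ∑ n : N, χ n * conj (lam n) = 0 := by
      have h2 : (1 - ω * conj (lam z)) * ∑ n : N, χ n * conj (lam n) = 0 := by
        rw [sub_mul, one_mul, ← hS, sub_self]
      rcases mul_eq_zero.mp h2 with h3 | h3
      · exact absurd (sub_eq_zero.mp h3).symm hωne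
      · exact h3
    unfold Cfsg.classInner
    rw [hS0, mul_zero]
  · intro hW
    rw [mem_twistSubmodule] at hW
    have hS : ∑ n : N, χ n * conj (lam n) = (Nat.card N : ℂ) * χ 1 := by
      have : ∀ n : N, χ n * conj (lam n) = χ 1 := by
        intro n
        have h1 := hW.2 n 1
        rw [mul_one] at h1
        rw [h1, mul_comm (lam n), mul_assoc, Complex.mul_conj', hlam.norm n]
        simp
      rw [Finset.sum_congr rfl (fun n _ => this n)]
      simp [Nat.card_eq_fintype_card]
    unfold Cfsg.classInner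
    rw [hS, ← mul_assoc, inv_mul_cancel₀ hcardne, one_mul]
    exact char_one_ne_zero hχ

omit [Fintype N] in
/-- Functions in the twisted space are orthogonal to irreducible characters outside it. -/
theorem classInner_eq_zero_of_not_mem (hN : N ≤ Subgroup.center G)
    {f : G → ℂ} (hf : f ∈ twistSubmodule N lam) {χ : G → ℂ} (hχ : Cfsg.IsIrrCharacter G χ)
    (hW : χ ∉ twistSubmodule N lam) : Cfsg.classInner f χ = 0 := by
  rw [mem_twistSubmodule] at hW
  push Not at hW
  obtain ⟨z, g, hzg⟩ := hW (isClassFunction_of_isCharacter (isCharacter_of_isIrrCharacter hχ))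
  obtain ⟨ω, hω, h⟩ := central_char_mul hχ (hN z.2)
  have hωnorm : ‖ω‖ = 1 := Complex.norm_eq_one_of_pow_eq_one hω (orderOf_pos (z : G)).ne'
  have hωne : lam z * conj ω ≠ 1 := by
    intro h1
    have := eq_of_mul_conj_eq_one h1 hωnorm
    rw [h g, this] at hzg
    exact hzg rfl
  have hS : ∑ x : G, f x * conj (χ x) = lam z * conj ω * ∑ x : G, f x * conj (χ x) := by
    refine (Fintype.sum_equiv (Equiv.mulLeft (z : G))
      (fun x : G => f (↑z * x) * conj (χ (↑z * x)))
      (fun x => f x * conj (χ x)) (fun n => rfl)).symm.trans ?_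
    rw [Finset.mul_sum]
    refine Finset.sum_congr rfl (fun x _ => ?_)
    rw [h, hf.2, map_mul]
    ring
  have hS0 : ∑ x : G, f x * conj (χ x) = 0 := by
    have h2 : (1 - lam z * conj ω) * ∑ x : G, f x * conj (χ x) = 0 := by
      rw [sub_mul, one_mul, ← hS, sub_self]
    rcases mul_eq_zero.mp h2 with h3 | h3
    · exact absurd (sub_eq_zero.mp h3).symm hωne
    · exact h3
  unfold Cfsg.classInner
  rw [hS0, mul_zero]

omit [Fintype N] in
/-- The twisted space is spanned by the irreducible characters it contains. -/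
theorem twistSubmodule_eq_span [Fintype (Cfsg.IrrCharacter G)] (hN : N ≤ Subgroup.center G) :
    twistSubmodule N lam = Submodule.span ℂ (Set.range
      (fun χ : {χ : Cfsg.IrrCharacter G // (χ : G → ℂ) ∈ twistSubmodule N lam} =>
        ((χ : Cfsg.IrrCharacter G) : G → ℂ))) := by
  apply le_antisymm
  · intro f hf
    rw [classFun_expansion f hf.1]
    refine Submodule.sum_mem _ (fun χ _ => ?_)
    by_cases hχ : (χ : G → ℂ) ∈ twistSubmodule N lam
    · exact Submodule.smul_mem _ _ (Submodule.subset_span ⟨⟨χ, hχ⟩, rfl⟩)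
    · rw [classInner_eq_zero_of_not_mem hN hf χ.2 hχ, zero_smul]
      exact zero_mem _
  · rw [Submodule.span_le]
    rintro _ ⟨χ, rfl⟩
    exact χ.2

omit [Fintype N] in
theorem finrank_twistSubmodule_eq_card_irr (hN : N ≤ Subgroup.center G) :
    Module.finrank ℂ (twistSubmodule N lam) =
      Nat.card {χ : Cfsg.IrrCharacter G // (χ : G → ℂ) ∈ twistSubmodule N lam} := by
  classical
  haveI : Fintype (Cfsg.IrrCharacter G) := Fintype.ofFinite _
  haveI : Fintype {χ : Cfsg.IrrCharacter G // (χ : G → ℂ) ∈ twistSubmodule N lam} :=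
    Fintype.ofFinite _
  rw [Nat.card_eq_fintype_card]
  have h1 := congrArg (fun S : Submodule ℂ (G → ℂ) => Module.finrank ℂ S)
    (twistSubmodule_eq_span (lam := lam) hN)
  rw [h1]
  apply finrank_span_eq_card
  exact (irr_linearIndependent (G := G)).comp Subtype.val Subtype.val_injective


/-! ### Good classes -/

/-- `g` is good for `N`: every `x` that commutes with `g` modulo `N` commutes with `g`. -/
def IsGoodElt (N : Subgroup G) (g : G) : Prop :=
  ∀ x : G, x⁻¹ * g⁻¹ * x * g ∈ N → x * g = g * x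

open Classical in
/-- The function supported on `N` times the class of `r`, twisted by `lam`. -/
noncomputable def twistBasisFun (lam : N → ℂ) (r : G) : G → ℂ :=
  fun x => ∑ z : N, if IsConj ((z : G)⁻¹ * x) r then lam z else 0

theorem twistBasisFun_mem (hN : N ≤ Subgroup.center G) (hlam : CentralLin N lam) (r : G) :
    twistBasisFun lam r ∈ twistSubmodule N lam := by
  classical
  refine ⟨fun g h => ?_, fun w x => ?_⟩
  · unfold twistBasisFun
    refine Finset.sum_congr rfl (fun z _ => ?_)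
    have hz : ∀ y : G, y * (z : G)⁻¹ = (z : G)⁻¹ * y :=
      Subgroup.mem_center_iff.mp (hN (N.inv_mem z.2))
    have h1 : (z : G)⁻¹ * (h * g * h⁻¹) = h * ((z : G)⁻¹ * g) * h⁻¹ := by
      rw [← mul_assoc h, hz h]
      group
    have h2 : IsConj ((z : G)⁻¹ * (h * g * h⁻¹)) r ↔ IsConj ((z : G)⁻¹ * g) r := by
      rw [h1]
      have h3 : IsConj ((z : G)⁻¹ * g) (h * ((z : G)⁻¹ * g) * h⁻¹) := isConj_iff.mpr ⟨h, rfl⟩
      exact ⟨fun h4 => h3.trans h4, fun h4 => h3.symm.trans h4⟩
    by_cases h5 : IsConj ((z : G)⁻¹ * g) r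
    · rw [if_pos h5, if_pos (h2.mpr h5)]
    · rw [if_neg h5, if_neg (fun h6 => h5 (h2.mp h6))]
  · have key : ∀ F : N → ℂ, ∑ z : N, F z = ∑ z : N, F (w * z) := fun F =>
      (Equiv.sum_comp (Equiv.mulLeft w) F).symm
    change (∑ z : N, if IsConj ((z : G)⁻¹ * (↑w * x)) r then lam z else 0) =
      lam w * ∑ z : N, if IsConj ((z : G)⁻¹ * x) r then lam z else 0
    rw [key, Finset.mul_sum]
    refine Finset.sum_congr rfl (fun z _ => ?_)
    have h1 : (↑(w * z) : G)⁻¹ * (↑w * x) = (z : G)⁻¹ * x := by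
      rw [Subgroup.coe_mul]
      group
    rw [h1, hlam.mul]
    by_cases h5 : IsConj ((z : G)⁻¹ * x) r
    · rw [if_pos h5, if_pos h5]
    · rw [if_neg h5, if_neg h5, mul_zero]

theorem twistBasisFun_self (hN : N ≤ Subgroup.center G) (hlam : CentralLin N lam) {r : G}
    (hr : IsGoodElt N r) : twistBasisFun lam r r = 1 := by
  classical
  unfold twistBasisFun
  rw [Finset.sum_eq_single (1 : N)]
  · rw [if_pos (by simp only [Subgroup.coe_one, inv_one, one_mul]; exact IsConj.refl r), hlam.one]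
  · intro z _ hz1
    rw [if_neg]
    intro hconj
    apply hz1
    obtain ⟨c, hc⟩ := isConj_iff.mp hconj
    have hzc : ∀ y : G, y * (z : G) = (z : G) * y := Subgroup.mem_center_iff.mp (hN z.2)
    have h1 : c⁻¹ * r⁻¹ * c * r = (z : G) := by
      calc c⁻¹ * r⁻¹ * c * r = c⁻¹ * (c * ((z : G)⁻¹ * r) * c⁻¹)⁻¹ * c * r := by rw [hc]
        _ = r⁻¹ * ((z : G) * r) := by group
        _ = r⁻¹ * (r * (z : G)) := by rw [hzc r]
        _ = (z : G) := by group
    have h2 : c * r = r * c := hr c (by rw [h1]; exact z.2)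
    have h3 : (z : G) = 1 := by
      rw [← h1, mul_assoc, h2]
      group
    exact Subtype.ext h3
  · intro h
    exact absurd (Finset.mem_univ _) h

theorem twistBasisFun_of_not_isConj [N.Normal] {r x : G}
    (h : ¬ IsConj (x : G ⧸ N) (r : G ⧸ N)) : twistBasisFun lam r x = 0 := by
  classical
  unfold twistBasisFun
  refine Finset.sum_eq_zero (fun z _ => ?_)
  rw [if_neg]
  intro hconj
  apply h
  have h1 := (QuotientGroup.mk' N).map_isConj hconj
  have h2 : (QuotientGroup.mk' N) ((z : G)⁻¹ * x) = (x : G ⧸ N) := by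
    rw [map_mul]
    have : (QuotientGroup.mk' N) ((z : G)⁻¹) = 1 :=
      (QuotientGroup.eq_one_iff _).mpr (N.inv_mem z.2)
    rw [this, one_mul]
    rfl
  rw [h2] at h1
  exact h1

omit [Fintype G] [Fintype N] in
theorem twist_eq_zero_of_not_good (hN : N ≤ Subgroup.center G) (hlam : CentralLin N lam)
    {f : G → ℂ} (hf : f ∈ twistSubmodule N lam) {g : G} (hg : ¬ IsGoodElt N g) : f g = 0 := by
  unfold IsGoodElt at hg
  push Not at hg
  obtain ⟨x, hxN, hne⟩ := hg
  have hcomm : ∀ y : G, y * (x⁻¹ * g⁻¹ * x * g) = (x⁻¹ * g⁻¹ * x * g) * y :=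
    Subgroup.mem_center_iff.mp (hN hxN)
  have h1 : x * g * x⁻¹ = (x⁻¹ * g⁻¹ * x * g) * g := by
    calc x * g * x⁻¹ = g * (x * (x⁻¹ * g⁻¹ * x * g) * x⁻¹) := by group
      _ = g * ((x⁻¹ * g⁻¹ * x * g) * x * x⁻¹) := by rw [hcomm x]
      _ = g * (x⁻¹ * g⁻¹ * x * g) := by group
      _ = (x⁻¹ * g⁻¹ * x * g) * g := hcomm g
  have h2 : f g = lam ⟨x⁻¹ * g⁻¹ * x * g, hxN⟩ * f g := by
    have h3 := hf.2 ⟨x⁻¹ * g⁻¹ * x * g, hxN⟩ g
    rw [← h3]
    change f g = f ((x⁻¹ * g⁻¹ * x * g) * g)
    rw [← h1]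
    exact (hf.1 g x).symm
  have h4 : lam ⟨x⁻¹ * g⁻¹ * x * g, hxN⟩ ≠ 1 := by
    intro h5
    have h6 := congrArg Subtype.val (hlam.faith _ h5)
    simp only [Subgroup.coe_one] at h6
    apply hne
    calc x * g = g * x * (x⁻¹ * g⁻¹ * x * g) := by group
      _ = g * x := by rw [h6, mul_one]
  have h7 : (1 - lam ⟨x⁻¹ * g⁻¹ * x * g, hxN⟩) * f g = 0 := by
    rw [sub_mul, one_mul, ← h2, sub_self]
  rcases mul_eq_zero.mp h7 with h8 | h8
  · exact absurd (sub_eq_zero.mp h8).symm h4
  · exact h8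

omit [Fintype G] [Fintype N] in
theorem twist_eq_of_isConj_quotient [N.Normal] (hN : N ≤ Subgroup.center G)
    {f : G → ℂ} (hf : f ∈ twistSubmodule N lam) {r x : G}
    (h : IsConj (r : G ⧸ N) (x : G ⧸ N)) : ∃ z : N, f x = lam z * f r := by
  obtain ⟨c, hc⟩ := isConj_iff.mp h
  obtain ⟨u, rfl⟩ := QuotientGroup.mk_surjective c
  have h1 : ((u * r * u⁻¹ : G) : G ⧸ N) = (x : G ⧸ N) := by
    rw [← hc]
    simp
  have h2 : (u * r * u⁻¹)⁻¹ * x ∈ N := QuotientGroup.eq.mp h1
  refine ⟨⟨(u * r * u⁻¹)⁻¹ * x, h2⟩, ?_⟩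
  have hcomm : ∀ y : G, y * ((u * r * u⁻¹)⁻¹ * x) = ((u * r * u⁻¹)⁻¹ * x) * y :=
    Subgroup.mem_center_iff.mp (hN h2)
  have h3 : x = ((u * r * u⁻¹)⁻¹ * x) * (u * r * u⁻¹) := by
    rw [← hcomm]
    group
  have h4 := hf.2 ⟨(u * r * u⁻¹)⁻¹ * x, h2⟩ (u * r * u⁻¹)
  rw [hf.1 r u] at h4
  rw [← h4]
  exact congrArg f h3

/-- The good classes of `G ⧸ N`. -/
abbrev GoodClass (N : Subgroup G) [N.Normal] : Type u :=
  {C : ConjClasses (G ⧸ N) // ∃ g : G, ConjClasses.mk (g : G ⧸ N) = C ∧ IsGoodElt N g}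

/-- A chosen good representative of a good class. -/
noncomputable def goodRep [N.Normal] (C : GoodClass N) : G := C.2.choose

omit [Fintype G] [Fintype N] in
theorem goodRep_mk [N.Normal] (C : GoodClass N) :
    ConjClasses.mk ((goodRep C : G) : G ⧸ N) = C.1 := C.2.choose_spec.1

omit [Fintype G] [Fintype N] in
theorem goodRep_good [N.Normal] (C : GoodClass N) : IsGoodElt N (goodRep C) :=
  C.2.choose_spec.2

/-- Evaluation at the good representatives. -/
noncomputable def twistEval [N.Normal] (lam : N → ℂ) :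
    twistSubmodule N lam →ₗ[ℂ] (GoodClass N → ℂ) where
  toFun f := fun C => f.1 (goodRep C)
  map_add' _ _ := rfl
  map_smul' _ _ := rfl

theorem twistEval_bijective [N.Normal] (hN : N ≤ Subgroup.center G) (hlam : CentralLin N lam) :
    Function.Bijective (twistEval (N := N) lam) := by
  classical
  haveI : Fintype (GoodClass N) := Fintype.ofFinite _
  constructor
  · rw [← LinearMap.ker_eq_bot, Submodule.eq_bot_iff]
    intro f hf
    rw [LinearMap.mem_ker] at hf
    apply Subtype.ext
    funext x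
    change f.1 x = 0
    by_cases hx : IsGoodElt N x
    · have hC := congrFun hf ⟨ConjClasses.mk (x : G ⧸ N), x, rfl, hx⟩
      change f.1 (goodRep _) = 0 at hC
      have h1 := goodRep_mk (N := N) ⟨ConjClasses.mk (x : G ⧸ N), x, rfl, hx⟩
      obtain ⟨z, hz⟩ := twist_eq_of_isConj_quotient hN f.2 (ConjClasses.mk_eq_mk_iff_isConj.mp h1)
      rw [hz, hC, mul_zero]
    · exact twist_eq_zero_of_not_good hN hlam f.2 hx
  · intro c
    refine ⟨⟨∑ C : GoodClass N, c C • twistBasisFun lam (goodRep C), ?_⟩, ?_⟩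
    · exact Submodule.sum_mem _ (fun C _ =>
        Submodule.smul_mem _ _ (twistBasisFun_mem hN hlam _))
    · funext C'
      change (∑ C : GoodClass N, c C • twistBasisFun lam (goodRep C)) (goodRep C') = c C'
      rw [Finset.sum_apply, Finset.sum_eq_single C']
      · rw [Pi.smul_apply, twistBasisFun_self hN hlam (goodRep_good C'), smul_eq_mul, mul_one]
      · intro C _ hne
        rw [Pi.smul_apply, twistBasisFun_of_not_isConj, smul_zero]
        intro hconj
        apply hne
        apply Subtype.ext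
        rw [← goodRep_mk C, ← goodRep_mk C']
        exact (ConjClasses.mk_eq_mk_iff_isConj.mpr hconj).symm
      · intro h
        exact absurd (Finset.mem_univ _) h

theorem finrank_twistSubmodule_eq_card_good [N.Normal] (hN : N ≤ Subgroup.center G)
    (hlam : CentralLin N lam) :
    Module.finrank ℂ (twistSubmodule N lam) = Nat.card (GoodClass N) := by
  classical
  haveI : Fintype (GoodClass N) := Fintype.ofFinite _
  rw [(LinearEquiv.ofBijective _ (twistEval_bijective hN hlam)).finrank_eq,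
    Module.finrank_fintype_fun_eq_card, Nat.card_eq_fintype_card]

/-- The number of irreducible characters of `G` over a faithful irreducible character of a
central subgroup `N` is the number of good classes of `G ⧸ N`. -/
theorem card_irr_over_faithful_central [N.Normal] (hN : N ≤ Subgroup.center G)
    (ψ : Cfsg.IrrCharacter ↥N)
    (hfaith : ∀ n : ↥N, (ψ : ↥N → ℂ) n = (ψ : ↥N → ℂ) 1 → n = 1) :
    Nat.card {χ : Cfsg.IrrCharacter G //
        Cfsg.classInner (fun n : ↥N => (χ : G → ℂ) n) (ψ : ↥N → ℂ) ≠ 0} =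
      Nat.card {C : ConjClasses (G ⧸ N) //
        ∃ g : G, ConjClasses.mk (g : G ⧸ N) = C ∧
          ∀ x : G, x⁻¹ * g⁻¹ * x * g ∈ N → x * g = g * x} := by
  have hlam := centralLin_of_irr hN ψ hfaith
  have h1 := finrank_twistSubmodule_eq_card_irr (lam := (ψ : N → ℂ)) hN
  have h2 := finrank_twistSubmodule_eq_card_good hN hlam
  rw [h1] at h2
  rw [← Nat.card_congr (Equiv.subtypeEquivRight
    (fun χ : Cfsg.IrrCharacter G => (classInner_res_ne_zero_iff hN hlam χ.2).symm))]
  exact h2

end GoodClasses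

end Cfsg.Agent.Lib.Helper80
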