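import Mathlib
import Cfsg.Prelude.Def_Characters
import Cfsg.Prelude.Def_Blocks
import Cfsg.Agent.Lib.Helper80.ItoConverse
import Cfsg.Agent.Lib.Helper80.OneDegree
import Cfsg.Agent.Lib.Helper80.GagolaSylow
import Cfsg.Agent.S4455

/-!
# Groups with a normal `p`-complement and exactly one irreducible character of degree divisible
by `p`: exactly one conjugacy class has size divisible by `p`.
-/

set_option autoImplicit false
set_option linter.style.haveILetI false

open scoped ComplexConjugate commutatorElement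

namespace Cfsg.Agent.Lib.Helper80

universe u

section General

variable {G : Type u} [Group G] [Finite G]

/-- If `χ₀` is the only irreducible character not having the normal subgroup `M` in its kernel,
then every normal subgroup meeting `M` trivially is trivial. -/
theorem eq_bot_of_disjoint_of_unique (M : Subgroup G) [M.Normal] (χ₀ : Cfsg.IrrCharacter G)
    (h₀ : ¬ ∀ x ∈ M, (χ₀ : G → ℂ) x = (χ₀ : G → ℂ) 1)
    (huniq : ∀ χ : Cfsg.IrrCharacter G, χ ≠ χ₀ → ∀ x ∈ M, (χ : G → ℂ) x = (χ : G → ℂ) 1)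
    (L : Subgroup G) [L.Normal] (hLM : Disjoint L M) : L = ⊥ := by
  by_contra hL
  obtain ⟨y, hyL, hy1⟩ := (L.bot_or_exists_ne_one).resolve_left hL
  obtain ⟨x₀, hx₀M, hx₀⟩ : ∃ x ∈ M, (χ₀ : G → ℂ) x ≠ (χ₀ : G → ℂ) 1 := by
    by_contra hcon
    push Not at hcon
    exact h₀ hcon
  have hx₀1 : x₀ ≠ 1 := fun h => hx₀ (by rw [h])
  have hyM : y ∉ M := fun hy => hy1 (Subgroup.disjoint_def.mp hLM hyL hy)
  have hx₀L : x₀ ∉ L := fun hx => hx₀1 (Subgroup.disjoint_def.mp hLM hx hx₀M)
  have hy0 := eq_zero_of_unique M χ₀ h₀ huniq hyM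
  have hx₀q : (x₀ : G ⧸ L) ≠ 1 := fun h => hx₀L ((QuotientGroup.eq_one_iff x₀).mp h)
  obtain ⟨ψ, hψ⟩ : ∃ ψ : Cfsg.IrrCharacter (G ⧸ L),
      (ψ : G ⧸ L → ℂ) (x₀ : G ⧸ L) ≠ (ψ : G ⧸ L → ℂ) 1 := by
    by_contra hcon
    push Not at hcon
    exact hx₀q (eq_one_of_forall_irr_eq hcon)
  have hχ : (⟨_, isIrrCharacter_inflate L ψ.2⟩ : Cfsg.IrrCharacter G) = χ₀ := by
    by_contra hne'
    exact hψ (huniq _ hne' x₀ hx₀M)
  have h1 : (χ₀ : G → ℂ) y = (χ₀ : G → ℂ) 1 := by
    rw [← hχ]
    show (ψ : G ⧸ L → ℂ) (y : G ⧸ L) = (ψ : G ⧸ L → ℂ) ((1 : G) : G ⧸ L)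
    rw [(QuotientGroup.eq_one_iff y).mpr hyL, QuotientGroup.mk_one]
  rw [hy0] at h1
  exact char_one_ne_zero χ₀.2 h1.symm

end General

section Sums

variable {G : Type u} [Group G] [Fintype G]

/-- `∑ f conj f = |G| ⟨f, f⟩`. -/
theorem sum_mul_conj_eq (f : G → ℂ) :
    ∑ g, f g * conj (f g) = (Nat.card G : ℂ) * Cfsg.classInner f f := by
  have hne : (Nat.card G : ℂ) ≠ 0 := by exact_mod_cast (Nat.card_pos (α := G)).ne'
  unfold Cfsg.classInner
  rw [← mul_assoc, mul_inv_cancel₀ hne, one_mul]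

/-- Centralizer orders summed over a finset, in terms of the irreducible characters. -/
theorem sum_card_centralizer_eq [Fintype (Cfsg.IrrCharacter G)] (s : Finset G) :
    ((∑ g ∈ s, Nat.card (Subgroup.centralizer ({g} : Set G)) : ℕ) : ℂ)
      = ∑ χ : Cfsg.IrrCharacter G, ∑ g ∈ s, (χ : G → ℂ) g * conj ((χ : G → ℂ) g) := by
  rw [Finset.sum_comm]
  push_cast
  refine Finset.sum_congr rfl fun g _ => ?_
  exact (second_orthogonality_of_isConj (IsConj.refl g)).symm

/-- The centralizer orders sum to `k(G) |G|`. -/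
theorem sum_card_centralizer_univ :
    ∑ g : G, Nat.card (Subgroup.centralizer ({g} : Set G))
      = Nat.card (Cfsg.IrrCharacter G) * Nat.card G := by
  classical
  haveI : Fintype (Cfsg.IrrCharacter G) := Fintype.ofFinite _
  have h := sum_card_centralizer_eq (G := G) Finset.univ
  have h2 : ∀ χ : Cfsg.IrrCharacter G,
      ∑ g : G, (χ : G → ℂ) g * conj ((χ : G → ℂ) g) = (Nat.card G : ℂ) := by
    intro χ
    rw [sum_mul_conj_eq, classInner_self χ.2, mul_one]
  rw [Finset.sum_congr rfl (fun χ _ => h2 χ), Finset.sum_const, Finset.card_univ,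
    nsmul_eq_mul, ← Nat.card_eq_fintype_card] at h
  exact_mod_cast h

/-- The order of a subgroup as the cardinality of a filter. -/
theorem card_subgroup_eq_filter [DecidableEq G] (K : Subgroup G) [DecidablePred (· ∈ K)] :
    Nat.card K = (Finset.univ.filter (fun x : G => x ∈ K)).card := by
  haveI : Fintype K := Fintype.ofFinite _
  rw [Nat.card_eq_fintype_card]
  exact Fintype.card_of_subtype _ (by simp)

omit [Fintype G] in
/-- `|C_G(g)| = |N ∩ C_G(g)| · r` with `r ∣ |G : N|`. -/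
theorem card_centralizer_eq_mul (N : Subgroup G) [N.Normal] (g : G) :
    Nat.card (Subgroup.centralizer ({g} : Set G))
      = Nat.card (N ⊓ Subgroup.centralizer ({g} : Set G) : Subgroup G)
        * N.relIndex (Subgroup.centralizer ({g} : Set G)) := by
  have h := Subgroup.relIndex_mul_relIndex (⊥ : Subgroup G)
    (N ⊓ Subgroup.centralizer ({g} : Set G)) (Subgroup.centralizer ({g} : Set G))
    bot_le inf_le_right
  rw [Subgroup.relIndex_bot_left, Subgroup.relIndex_bot_left, Subgroup.inf_relIndex_right] at h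
  exact h.symm

omit [Fintype G] in
/-- If `g` and `a` commute and have coprime orders, `C_G(g a) ≤ C_G(g)`. -/
theorem centralizer_mul_le_of_coprime {g a : G} (hc : Commute g a)
    (hcop : Nat.Coprime (orderOf a) (orderOf g)) :
    Subgroup.centralizer ({g * a} : Set G) ≤ Subgroup.centralizer ({g} : Set G) := by
  intro x hx
  rw [Subgroup.mem_centralizer_singleton_iff] at hx ⊢
  obtain ⟨m, hm⟩ := exists_pow_eq_self_of_coprime hcop
  have h1 : (g * a) ^ orderOf a = g ^ orderOf a := by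
    rw [hc.mul_pow, pow_orderOf_eq_one, mul_one]
  have h2 : g = ((g * a) ^ orderOf a) ^ m := by rw [h1, hm]
  have h3 : Commute x (g * a) := hx
  have h4 : Commute x (((g * a) ^ orderOf a) ^ m) := (h3.pow_right _).pow_right _
  rw [← h2] at h4
  exact h4

end Sums

section Structure

variable {G : Type u} [Group G] [Fintype G] (N : Subgroup G) [N.Normal] [Fintype N]

/-- The structure of the irreducible characters in a group with a normal `p`-complement `N`
and exactly one irreducible character `χ₀` of degree divisible by `p`, when `G` is not nilpotent: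
`k(G) = 1 + |G:N| f`, `k(N) = f + |G:N|`, `∑_{n ∈ N} |χ(n)|²` is `|G|` for `χ = χ₀` and `|N|`
otherwise. -/
theorem one_degree_structure (p : ℕ) [Fact p.Prime] (hnil : ¬ Group.IsNilpotent G)
    (hN : (Nat.card N).Coprime p) {k : ℕ} (hidx : N.index = p ^ k) (χ₀ : Cfsg.IrrCharacter G)
    (hχ₀d : p ∣ Cfsg.charDegree (χ₀ : G → ℂ))
    (hsub : ∀ χ : Cfsg.IrrCharacter G, p ∣ Cfsg.charDegree (χ : G → ℂ) → χ = χ₀) :
    ∃ f : ℕ, Nat.card (Cfsg.IrrCharacter G) = 1 + N.index * f ∧
      Nat.card (Cfsg.IrrCharacter N) = f + N.index ∧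
      (∑ n : N, (χ₀ : G → ℂ) n * conj ((χ₀ : G → ℂ) n) = (Nat.card G : ℂ)) ∧
      ∀ χ : Cfsg.IrrCharacter G, χ ≠ χ₀ →
        ∑ n : N, (χ : G → ℂ) n * conj ((χ : G → ℂ) n) = (Nat.card N : ℂ) := by
  classical
  have hp : p.Prime := Fact.out
  haveI : Fintype (Cfsg.IrrCharacter G) := Fintype.ofFinite _
  haveI : Fintype (Cfsg.IrrCharacter N) := Fintype.ofFinite _
  have hNp : ¬ p ∣ Nat.card N := fun hdvd =>
    hp.one_lt.ne' (Nat.eq_one_of_dvd_coprimes hN hdvd (dvd_refl p))
  have hGN : N.index * Nat.card N = Nat.card G := Subgroup.index_mul_card N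
  have hqpos : 0 < N.index := Nat.pos_of_ne_zero Subgroup.index_ne_zero_of_finite
  let P : Sylow p G := default
  have hPN : Disjoint (P : Subgroup G) N := by
    apply Subgroup.disjoint_of_coprime_natCard
    obtain ⟨j, hj⟩ := IsPGroup.iff_card.mp P.2
    rw [hj]
    exact Nat.Coprime.pow_left _ (Nat.Coprime.symm hN)
  -- invariance of constituents under characters of degree prime to `p`
  have hinv_of : ∀ (χ : Cfsg.IrrCharacter G) (θ : Cfsg.IrrCharacter N),
      ¬ p ∣ Cfsg.charDegree (χ : G → ℂ) →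
      Cfsg.classInner (fun n : N => (χ : G → ℂ) n) (θ : N → ℂ) ≠ 0 →
      Helper75.inertia N (θ : N → ℂ) = ⊤ := by
    intro χ θ hnd h
    obtain ⟨e, he⟩ := charDegree_eq_mul_index_inertia N χ.2 θ.2 h
    have hd1 : (Helper75.inertia N (θ : N → ℂ)).index ∣ p ^ k := by
      rw [← hidx]
      exact Subgroup.index_dvd_of_le (Helper75.le_inertia N
        (isClassFunction_of_isCharacter (isCharacter_of_isIrrCharacter θ.2)))
    obtain ⟨j, -, hj⟩ := (Nat.dvd_prime_pow hp).mp hd1
    rw [← Subgroup.index_eq_one]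
    rcases Nat.eq_zero_or_pos j with rfl | hjpos
    · simpa using hj
    · exfalso
      apply hnd
      rw [he, hj]
      exact ((dvd_pow_self p hjpos.ne').mul_left e).mul_right _
  -- Step 1: `χ₀` lies over a non-invariant character of `N`
  obtain ⟨θ₀, hθ₀c, hθ₀i⟩ : ∃ θ₀ : Cfsg.IrrCharacter N,
      Cfsg.classInner (fun n : N => (χ₀ : G → ℂ) n) (θ₀ : N → ℂ) ≠ 0 ∧
      Helper75.inertia N (θ₀ : N → ℂ) ≠ ⊤ := by
    by_contra hcon
    push Not at hcon
    have hinv : ∀ θ : Cfsg.IrrCharacter N, Helper75.inertia N (θ : N → ℂ) = ⊤ := by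
      intro θ
      obtain ⟨χ, hχ, h⟩ := exists_irr_over N θ.2
      by_cases hχ₀ : (⟨χ, hχ⟩ : Cfsg.IrrCharacter G) = χ₀
      · apply hcon θ
        rw [← hχ₀]
        exact h
      · exact hinv_of ⟨χ, hχ⟩ θ (fun hd => hχ₀ (hsub _ hd)) h
    have hcent := le_centralizer_of_invariant N hinv (P : Subgroup G) P.2 hNp
    have hPNtop : (P : Subgroup G) ⊔ N = ⊤ := by
      rw [← Subgroup.index_eq_one]
      have h1 : ((P : Subgroup G) ⊔ N).index ∣ (P : Subgroup G).index :=
        Subgroup.index_dvd_of_le le_sup_left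
      have h2 : ((P : Subgroup G) ⊔ N).index ∣ p ^ k := by
        rw [← hidx]; exact Subgroup.index_dvd_of_le le_sup_right
      obtain ⟨j, -, hj⟩ := (Nat.dvd_prime_pow hp).mp h2
      rcases Nat.eq_zero_or_pos j with rfl | hjpos
      · simpa using hj
      · exfalso
        apply P.not_dvd_index
        exact (hj ▸ dvd_pow_self p hjpos.ne' : p ∣ ((P : Subgroup G) ⊔ N).index).trans h1
    have hPn : (P : Subgroup G).Normal := by
      have hnorm : Subgroup.normalizer ((P : Subgroup G) : Set G) = ⊤ := by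
        rw [eq_top_iff, ← hPNtop]
        exact sup_le Subgroup.le_normalizer
          (hcent.trans (Subgroup.centralizer_le_normalizer _))
      exact Subgroup.normalizer_eq_top_iff.mp hnorm
    haveI := hPn
    have h₀ := (dvd_charDegree_iff_of_normal_sylow P χ₀).mp hχ₀d
    have huniq : ∀ χ : Cfsg.IrrCharacter G, χ ≠ χ₀ →
        ∀ x ∈ ⁅(P : Subgroup G), (P : Subgroup G)⁆, (χ : G → ℂ) x = (χ : G → ℂ) 1 := by
      intro χ hne
      by_contra hcon'
      exact hne (hsub χ ((dvd_charDegree_iff_of_normal_sylow P χ).mpr hcon'))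
    haveI : (⁅(P : Subgroup G), (P : Subgroup G)⁆).Normal := Subgroup.commutator_normal _ _
    have hNbot := eq_bot_of_disjoint_of_unique ⁅(P : Subgroup G), (P : Subgroup G)⁆ χ₀ h₀ huniq N
      (hPN.symm.mono_right (Subgroup.commutator_le_right _ _))
    apply hnil
    have hPtop : (P : Subgroup G) = ⊤ := by rw [← hPNtop, hNbot, sup_bot_eq]
    have hG : IsPGroup p G := by
      have h1 := P.2
      rw [hPtop] at h1
      exact h1.of_equiv Subgroup.topEquiv
    exact hG.isNilpotent
  -- the two kinds of characters of `N`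
  have hχ₀cf := isClassFunction_of_isCharacter (isCharacter_of_isIrrCharacter χ₀.2)
  have hO_ninv : ∀ θ : Cfsg.IrrCharacter N,
      Cfsg.classInner (fun n : N => (χ₀ : G → ℂ) n) (θ : N → ℂ) ≠ 0 →
      Helper75.inertia N (θ : N → ℂ) ≠ ⊤ := by
    intro θ hθ htop
    obtain ⟨g, hg⟩ := Helper75.clifford_conj N χ₀.2 θ.2 θ₀.2 hθ hθ₀c
    apply hθ₀i
    have h1 := (Helper75.inertia_eq_top_iff N (θ : N → ℂ)).mp htop g
    rw [hg] at h1
    rw [h1]
    exact htop
  have hninv_O : ∀ θ : Cfsg.IrrCharacter N,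
      Cfsg.classInner (fun n : N => (χ₀ : G → ℂ) n) (θ : N → ℂ) = 0 →
      Helper75.inertia N (θ : N → ℂ) = ⊤ := by
    intro θ hθ
    obtain ⟨χ, hχ, h⟩ := exists_irr_over N θ.2
    have hχ₀ : (⟨χ, hχ⟩ : Cfsg.IrrCharacter G) ≠ χ₀ := by
      intro h'
      apply h
      have : χ = (χ₀ : G → ℂ) := congrArg Subtype.val h'
      rw [this]
      exact hθ
    exact hinv_of ⟨χ, hχ⟩ θ (fun hd => hχ₀ (hsub _ hd)) h
  -- the restriction map
  have hres : ∀ χ : Cfsg.IrrCharacter G, χ ≠ χ₀ →
      Cfsg.IsIrrCharacter N (fun n : N => (χ : G → ℂ) n) := fun χ hne =>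
    Cfsg.Agent.S4455.res_irr p hp N k hidx χ.1 χ.2 (fun hd => hne (hsub χ hd))
  let r : Cfsg.IrrCharacter G → Cfsg.IrrCharacter N := fun χ =>
    if h : χ = χ₀ then trivIrr N else ⟨fun n : N => (χ : G → ℂ) n, hres χ h⟩
  have hr : ∀ χ : Cfsg.IrrCharacter G, χ ≠ χ₀ →
      ((r χ : Cfsg.IrrCharacter N) : N → ℂ) = fun n : N => (χ : G → ℂ) n := by
    intro χ hne
    simp only [r, dif_neg hne]
  let Fix : Finset (Cfsg.IrrCharacter N) :=
    Finset.univ.filter (fun θ => Helper75.inertia N (θ : N → ℂ) = ⊤)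
  let O : Finset (Cfsg.IrrCharacter N) :=
    Finset.univ.filter (fun θ => Cfsg.classInner (fun n : N => (χ₀ : G → ℂ) n) (θ : N → ℂ) ≠ 0)
  have hrFix : ∀ χ ∈ Finset.univ.erase χ₀, r χ ∈ Fix := by
    intro χ hχ
    have hne : χ ≠ χ₀ := Finset.ne_of_mem_erase hχ
    simp only [Fix, Finset.mem_filter, Finset.mem_univ, true_and]
    rw [Helper75.inertia_eq_top_iff, hr χ hne]
    exact fun g => Helper75.conjChar_res N
      (isClassFunction_of_isCharacter (isCharacter_of_isIrrCharacter χ.2)) g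
  -- fibres of the restriction map
  have hfib : ∀ θ ∈ Fix, ((Finset.univ.erase χ₀).filter (fun χ => r χ = θ)).card = N.index := by
    intro θ hθ
    have hθF : Helper75.inertia N (θ : N → ℂ) = ⊤ := by
      simpa [Fix] using hθ
    obtain ⟨m, hm, hexp⟩ := character_expansion
      (isCharacter_indFun N (isCharacter_of_isIrrCharacter θ.2))
    have hmχ : ∀ χ : Cfsg.IrrCharacter G,
        (m χ : ℂ) * (χ : G → ℂ) 1 = if χ ≠ χ₀ ∧ r χ = θ then (θ : N → ℂ) 1 else 0 := by
      intro χ
      have hfr := frobenius_reciprocity N (θ : N → ℂ) (χ : G → ℂ)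
        (isClassFunction_of_isCharacter (isCharacter_of_isIrrCharacter χ.2))
      rw [hm χ] at hfr
      by_cases hχ : χ = χ₀
      · rw [if_neg (fun h => h.1 hχ)]
        have h0 : Cfsg.classInner (fun n : N => (χ₀ : G → ℂ) n) (θ : N → ℂ) = 0 := by
          by_contra hne
          exact hO_ninv θ hne hθF
        rw [hχ] at hfr ⊢
        rw [← classInner_conj_symm, h0, map_zero] at hfr
        rw [hfr, zero_mul]
      · rw [← hr χ hχ, classInner_irr] at hfr
        by_cases hrθ : r χ = θ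
        · rw [if_pos ⟨hχ, hrθ⟩, hfr, if_pos hrθ.symm, one_mul]
          have := congrFun (hr χ hχ) 1
          rw [hrθ] at this
          rw [this]
          rfl
        · rw [if_neg (fun h => hrθ h.2), hfr, if_neg (fun h => hrθ h.symm), zero_mul]
    have h1 := congrFun hexp 1
    rw [indFun_one] at h1
    simp only [Finset.sum_apply, Pi.smul_apply, smul_eq_mul] at h1
    rw [Finset.sum_congr rfl (fun χ _ => hmχ χ), ← Finset.sum_filter, Finset.sum_const,
      nsmul_eq_mul] at h1
    have hθ1 : (θ : N → ℂ) 1 ≠ 0 := char_one_ne_zero θ.2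
    have h2 := mul_right_cancel₀ hθ1 h1
    have h3 : (Finset.univ.erase χ₀).filter (fun χ => r χ = θ)
        = Finset.univ.filter (fun χ : Cfsg.IrrCharacter G => χ ≠ χ₀ ∧ r χ = θ) := by
      ext χ
      simp
    rw [h3]
    exact_mod_cast h2.symm
  have hkG : Nat.card (Cfsg.IrrCharacter G) = 1 + N.index * Fix.card := by
    rw [Nat.card_eq_fintype_card, ← Finset.card_univ,
      ← Finset.card_erase_add_one (Finset.mem_univ χ₀),
      Finset.card_eq_sum_card_fiberwise hrFix, Finset.sum_congr rfl hfib, Finset.sum_const,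
      smul_eq_mul]
    ring
  -- the restriction of `χ₀`
  obtain ⟨m₀, hm₀, hexp₀⟩ := character_expansion
    (isCharacter_restrict N (isCharacter_of_isIrrCharacter χ₀.2))
  have hm₀O : ∀ θ ∈ O, m₀ θ = m₀ θ₀ := by
    intro θ hθ
    have hθ' : Cfsg.classInner (fun n : N => (χ₀ : G → ℂ) n) (θ : N → ℂ) ≠ 0 := by
      simpa [O] using hθ
    obtain ⟨g, hg⟩ := Helper75.clifford_conj N χ₀.2 θ₀.2 θ.2 hθ₀c hθ'
    have h1 := Helper75.classInner_res_conjChar N hχ₀cf (θ₀ : N → ℂ) g
    rw [hg, hm₀ θ, hm₀ θ₀] at h1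
    exact_mod_cast h1
  have hm₀nO : ∀ θ : Cfsg.IrrCharacter N, θ ∉ O → m₀ θ = 0 := by
    intro θ hθ
    have hθ' : Cfsg.classInner (fun n : N => (χ₀ : G → ℂ) n) (θ : N → ℂ) = 0 := by
      simpa [O] using hθ
    rw [hm₀ θ] at hθ'
    exact_mod_cast hθ'
  have he₀ : m₀ θ₀ ≠ 0 := by
    intro h
    apply hθ₀c
    rw [hm₀ θ₀, h]
    simp
  have hθ₀O : θ₀ ∈ O := by simpa [O] using hθ₀c
  have hO1 : ∀ θ ∈ O, (θ : N → ℂ) 1 = (θ₀ : N → ℂ) 1 := by
    intro θ hθ
    have hθ' : Cfsg.classInner (fun n : N => (χ₀ : G → ℂ) n) (θ : N → ℂ) ≠ 0 := by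
      simpa [O] using hθ
    obtain ⟨g, hg⟩ := Helper75.clifford_conj N χ₀.2 θ₀.2 θ.2 hθ₀c hθ'
    rw [← hg, Helper75.conjChar_apply_one]
  -- `χ₀(1) = |O| e₀ θ₀(1)`
  have hχ₀1 : (χ₀ : G → ℂ) 1 = (O.card : ℂ) * (m₀ θ₀ : ℂ) * (θ₀ : N → ℂ) 1 := by
    have h1 := congrFun hexp₀ 1
    simp only [Finset.sum_apply, Pi.smul_apply, smul_eq_mul] at h1
    have h2 : ∀ θ : Cfsg.IrrCharacter N, (m₀ θ : ℂ) * (θ : N → ℂ) 1
        = if θ ∈ O then (m₀ θ₀ : ℂ) * (θ₀ : N → ℂ) 1 else 0 := by
      intro θ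
      by_cases hθ : θ ∈ O
      · rw [if_pos hθ, hm₀O θ hθ, hO1 θ hθ]
      · rw [if_neg hθ, hm₀nO θ hθ]; simp
    rw [Finset.sum_congr rfl (fun θ _ => h2 θ), ← Finset.sum_filter, Finset.sum_const,
      nsmul_eq_mul] at h1
    have h3 : Finset.univ.filter (fun θ : Cfsg.IrrCharacter N => θ ∈ O) = O := by
      ext θ; simp
    rw [h3] at h1
    rw [← mul_assoc] at h1
    exact h1
  -- Frobenius reciprocity for `θ₀`: `|G:N| = e₀² |O|`
  have hq : N.index = m₀ θ₀ ^ 2 * O.card := by
    obtain ⟨m, hm, hexp⟩ := character_expansion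
      (isCharacter_indFun N (isCharacter_of_isIrrCharacter θ₀.2))
    have hmχ : ∀ χ : Cfsg.IrrCharacter G,
        (m χ : ℂ) * (χ : G → ℂ) 1 = if χ = χ₀ then (m₀ θ₀ : ℂ) * (χ₀ : G → ℂ) 1 else 0 := by
      intro χ
      have hfr := frobenius_reciprocity N (θ₀ : N → ℂ) (χ : G → ℂ)
        (isClassFunction_of_isCharacter (isCharacter_of_isIrrCharacter χ.2))
      rw [hm χ] at hfr
      by_cases hχ : χ = χ₀
      · rw [if_pos hχ, hfr, hχ, ← classInner_conj_symm, hm₀ θ₀]
        simp
      · rw [if_neg hχ, hfr, ← hr χ hχ, classInner_irr]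
        have hne : θ₀ ≠ r χ := by
          intro h
          apply hθ₀i
          have := hrFix χ (Finset.mem_erase.mpr ⟨hχ, Finset.mem_univ _⟩)
          rw [← h] at this
          simpa [Fix] using this
        rw [if_neg hne, zero_mul]
    have h1 := congrFun hexp 1
    rw [indFun_one] at h1
    simp only [Finset.sum_apply, Pi.smul_apply, smul_eq_mul] at h1
    rw [Finset.sum_congr rfl (fun χ _ => hmχ χ), Finset.sum_ite_eq' Finset.univ χ₀,
      if_pos (Finset.mem_univ _), hχ₀1] at h1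
    have hθ1 : (θ₀ : N → ℂ) 1 ≠ 0 := char_one_ne_zero θ₀.2
    have h2 : (N.index : ℂ) * (θ₀ : N → ℂ) 1
        = ((m₀ θ₀ ^ 2 * O.card : ℕ) : ℂ) * (θ₀ : N → ℂ) 1 := by
      rw [h1]; push_cast; ring
    exact_mod_cast mul_right_cancel₀ hθ1 h2
  -- `⟨χ₀|N, χ₀|N⟩ = |G:N|`
  have hinner₀ : Cfsg.classInner (fun n : N => (χ₀ : G → ℂ) n) (fun n : N => (χ₀ : G → ℂ) n)
      = (N.index : ℂ) := by
    conv_lhs => rw [hexp₀]
    rw [classInner_sum_irr]
    have h2 : ∀ θ : Cfsg.IrrCharacter N, (m₀ θ : ℂ) * conj ((m₀ θ : ℂ))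
        = if θ ∈ O then ((m₀ θ₀ ^ 2 : ℕ) : ℂ) else 0 := by
      intro θ
      by_cases hθ : θ ∈ O
      · rw [if_pos hθ, hm₀O θ hθ, Complex.conj_natCast]; push_cast; ring
      · rw [if_neg hθ, hm₀nO θ hθ]; simp
    rw [Finset.sum_congr rfl (fun θ _ => h2 θ), ← Finset.sum_filter, Finset.sum_const,
      nsmul_eq_mul]
    have h3 : Finset.univ.filter (fun θ : Cfsg.IrrCharacter N => θ ∈ O) = O := by
      ext θ; simp
    rw [h3, hq]
    push_cast
    ring
  have hsum₀ : ∑ n : N, (χ₀ : G → ℂ) n * conj ((χ₀ : G → ℂ) n) = (Nat.card G : ℂ) := by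
    rw [sum_mul_conj_eq (fun n : N => (χ₀ : G → ℂ) n), hinner₀, ← hGN]
    push_cast
    ring
  -- `χ₀` vanishes off `N`
  have hvan : ∀ g : G, g ∉ N → (χ₀ : G → ℂ) g = 0 := by
    have h1 : ∑ g : G, (χ₀ : G → ℂ) g * conj ((χ₀ : G → ℂ) g) = (Nat.card G : ℂ) := by
      rw [sum_mul_conj_eq, classInner_self χ₀.2, mul_one]
    have h2 : ∑ g ∈ Finset.univ.filter (fun g : G => g ∈ N),
        (χ₀ : G → ℂ) g * conj ((χ₀ : G → ℂ) g) = (Nat.card G : ℂ) := by
      rw [← hsum₀]
      exact Finset.sum_subtype _ (by simp) _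
    have h3 : ∑ g ∈ Finset.univ.filter (fun g : G => g ∉ N),
        (χ₀ : G → ℂ) g * conj ((χ₀ : G → ℂ) g) = 0 := by
      have := Finset.sum_filter_add_sum_filter_not Finset.univ (fun g : G => g ∈ N)
        (fun g => (χ₀ : G → ℂ) g * conj ((χ₀ : G → ℂ) g))
      rw [h1, h2] at this
      exact add_left_cancel (this.trans (add_zero _).symm)
    have h4 : ∑ g ∈ Finset.univ.filter (fun g : G => g ∉ N), ‖(χ₀ : G → ℂ) g‖ ^ 2 = 0 := by
      have : ((∑ g ∈ Finset.univ.filter (fun g : G => g ∉ N), ‖(χ₀ : G → ℂ) g‖ ^ 2 : ℝ) : ℂ)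
          = 0 := by
        rw [← h3]
        push_cast
        refine Finset.sum_congr rfl fun g _ => ?_
        rw [Complex.mul_conj']
      exact_mod_cast this
    intro g hg
    have h5 := (Finset.sum_eq_zero_iff_of_nonneg (fun g _ => sq_nonneg _)).mp h4 g
      (Finset.mem_filter.mpr ⟨Finset.mem_univ _, hg⟩)
    exact norm_eq_zero.mp ((pow_eq_zero_iff (two_ne_zero)).mp h5)
  -- `e₀ = 1`
  have he₀1 : m₀ θ₀ = 1 := by
    haveI : Fintype (P : Subgroup G) := Fintype.ofFinite _
    obtain ⟨m, hm⟩ := classInner_nat (isCharacter_restrict (P : Subgroup G)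
      (isCharacter_of_isIrrCharacter χ₀.2)) (isCharacter_one (G := (P : Subgroup G)))
    unfold Cfsg.classInner at hm
    have hs : ∑ u : (P : Subgroup G), (χ₀ : G → ℂ) u * conj (1 : ℂ) = (χ₀ : G → ℂ) 1 := by
      rw [Finset.sum_eq_single (1 : (P : Subgroup G))]
      · simp
      · intro u _ hu
        have huN : (u : G) ∉ N := by
          intro h
          apply hu
          have := Subgroup.disjoint_def.mp hPN u.2 h
          exact Subtype.ext this
        rw [hvan _ huN, zero_mul]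
      · intro h
        exact absurd (Finset.mem_univ _) h
    rw [hs] at hm
    have hcardP : Nat.card (P : Subgroup G) = N.index := by
      obtain ⟨j, hj⟩ := IsPGroup.iff_card.mp P.2
      have h1 : Nat.card (P : Subgroup G) * (P : Subgroup G).index = N.index * Nat.card N := by
        rw [Subgroup.card_mul_index, hGN]
      have h2 : Nat.card (P : Subgroup G) ∣ N.index := by
        have : Nat.card (P : Subgroup G) ∣ N.index * Nat.card N := Dvd.intro _ h1
        rw [hj] at this ⊢
        exact (Nat.Coprime.pow_left _ (Nat.Coprime.symm hN)).dvd_of_dvd_mul_right this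
      have h3 : N.index ∣ Nat.card (P : Subgroup G) := by
        have : N.index ∣ Nat.card (P : Subgroup G) * (P : Subgroup G).index :=
          Dvd.intro _ h1.symm
        rw [hidx] at this ⊢
        exact (Nat.Coprime.pow_left _
          ((Nat.Prime.coprime_iff_not_dvd hp).mpr P.not_dvd_index)).dvd_of_dvd_mul_right this
      exact Nat.dvd_antisymm h2 h3
    have hPne : (Nat.card (P : Subgroup G) : ℂ) ≠ 0 := by
      exact_mod_cast (Nat.card_pos (α := (P : Subgroup G))).ne'
    have h4 : (χ₀ : G → ℂ) 1 = (m : ℂ) * (Nat.card (P : Subgroup G) : ℂ) := by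
      rw [← hm]; field_simp
    rw [hχ₀1, hcardP, hq, char_one_eq_charDegree (isCharacter_of_isIrrCharacter θ₀.2)] at h4
    have h5 : O.card * m₀ θ₀ * Cfsg.charDegree (θ₀ : N → ℂ)
        = m * (m₀ θ₀ ^ 2 * O.card) := by exact_mod_cast h4
    have hOpos : 0 < O.card := Finset.card_pos.mpr ⟨θ₀, hθ₀O⟩
    have h6 : Cfsg.charDegree (θ₀ : N → ℂ) = m * m₀ θ₀ := by
      have h7 : O.card * m₀ θ₀ * Cfsg.charDegree (θ₀ : N → ℂ)
          = O.card * m₀ θ₀ * (m * m₀ θ₀) := by rw [h5]; ring
      exact Nat.eq_of_mul_eq_mul_left (Nat.mul_pos hOpos (Nat.pos_of_ne_zero he₀)) h7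
    have h8 : m₀ θ₀ ∣ Nat.card N := (Dvd.intro_left m h6.symm).trans (charDegree_dvd_card θ₀.2)
    have h9 : m₀ θ₀ ∣ p ^ k := by
      rw [← hidx, hq, pow_two, mul_assoc]
      exact Dvd.intro _ rfl
    exact Nat.eq_one_of_dvd_coprimes (Nat.Coprime.pow_right k hN) h8 h9
  have hOcard : O.card = N.index := by rw [hq, he₀1]; simp
  -- `k(N)`
  have hkN : Nat.card (Cfsg.IrrCharacter N) = Fix.card + N.index := by
    rw [← hOcard, Nat.card_eq_fintype_card, ← Finset.card_univ]
    have hO' : O = Finset.univ.filter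
        (fun θ : Cfsg.IrrCharacter N => ¬ Helper75.inertia N (θ : N → ℂ) = ⊤) := by
      ext θ
      simp only [O, Finset.mem_filter, Finset.mem_univ, true_and]
      constructor
      · exact hO_ninv θ
      · intro h hc
        exact h (hninv_O θ hc)
    rw [hO']
    exact (Finset.card_filter_add_card_filter_not _).symm
  refine ⟨Fix.card, hkG, hkN, hsum₀, ?_⟩
  intro χ hne
  rw [sum_mul_conj_eq (fun n : N => (χ : G → ℂ) n), classInner_self (hres χ hne), mul_one]

end Structure

section Count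

variable {G : Type u} [Group G] [Finite G]

omit [Finite G] in
/-- The centralizer in a subgroup `N` of an element of `N`. -/
theorem card_inf_centralizer_eq (N : Subgroup G) (n : N) :
    Nat.card (N ⊓ Subgroup.centralizer ({(n : G)} : Set G) : Subgroup G)
      = Nat.card (Subgroup.centralizer ({n} : Set N)) := by
  have h1 : Subgroup.centralizer ({n} : Set N)
      = (Subgroup.centralizer ({(n : G)} : Set G)).subgroupOf N := by
    ext x
    rw [Subgroup.mem_subgroupOf, Subgroup.mem_centralizer_singleton_iff,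
      Subgroup.mem_centralizer_singleton_iff, Subtype.ext_iff]
    rfl
  rw [h1, ← Subgroup.card_map_of_injective N.subtype_injective, Subgroup.subgroupOf_map_subtype,
    inf_comm]

/-- A non-nilpotent group with a normal `p`-complement and exactly one irreducible character of
degree divisible by `p` has exactly one conjugacy class of size divisible by `p`. -/
theorem one_class_of_one_degree (p : ℕ) [Fact p.Prime] (hnil : ¬ Group.IsNilpotent G)
    (N : Subgroup G) [N.Normal] (hN : (Nat.card N).Coprime p) (hidx : ∃ k : ℕ, N.index = p ^ k)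
    (hone : Nat.card {χ : Cfsg.IrrCharacter G // p ∣ Cfsg.charDegree (χ : G → ℂ)} = 1) :
    Nat.card {C : ConjClasses G // p ∣ Nat.card C.carrier} = 1 := by
  classical
  have hp : p.Prime := Fact.out
  haveI := Fintype.ofFinite G
  haveI : Fintype N := Fintype.ofFinite _
  haveI : Fintype (Cfsg.IrrCharacter G) := Fintype.ofFinite _
  haveI : Fintype (Cfsg.IrrCharacter N) := Fintype.ofFinite _
  obtain ⟨k, hidx⟩ := hidx
  obtain ⟨hsub', ⟨⟨χ₀, hχ₀d⟩⟩⟩ := Nat.card_eq_one_iff_unique.mp hone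
  have hsub : ∀ χ : Cfsg.IrrCharacter G, p ∣ Cfsg.charDegree (χ : G → ℂ) → χ = χ₀ :=
    fun χ hd => congrArg Subtype.val (hsub'.elim ⟨χ, hd⟩ ⟨χ₀, hχ₀d⟩)
  obtain ⟨F, hkG, hkN, hsum₀, hsumχ⟩ := one_degree_structure N p hnil hN hidx χ₀ hχ₀d hsub
  have hNp : ¬ p ∣ Nat.card N := fun hdvd =>
    hp.one_lt.ne' (Nat.eq_one_of_dvd_coprimes hN hdvd (dvd_refl p))
  have hGN : N.index * Nat.card N = Nat.card G := Subgroup.index_mul_card N
  have hqpos : 0 < N.index := Nat.pos_of_ne_zero Subgroup.index_ne_zero_of_finite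
  have hpq : p ∣ N.index := by
    rcases Nat.eq_zero_or_pos k with rfl | hk
    · exfalso
      have h1 : Nat.card G = Nat.card N := by rw [← hGN, hidx]; simp
      exact hNp (h1 ▸ hχ₀d.trans (charDegree_dvd_card χ₀.2))
    · rw [hidx]; exact dvd_pow_self p hk.ne'
  obtain ⟨q', hq'⟩ : ∃ q' : ℕ, N.index = q' + 1 := ⟨N.index - 1, by omega⟩
  have hq'pos : 0 < q' := by
    have := Nat.le_of_dvd hqpos hpq
    have := hp.two_le
    omega
  -- notation
  let A : G → ℕ := fun g => Nat.card (Subgroup.centralizer ({g} : Set G))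
  let B : G → ℕ := fun g => Nat.card (N ⊓ Subgroup.centralizer ({g} : Set G) : Subgroup G)
  let Nf : Finset G := Finset.univ.filter (fun g => g ∈ N)
  have hAB : ∀ g, A g = B g * N.relIndex (Subgroup.centralizer ({g} : Set G)) :=
    fun g => card_centralizer_eq_mul N g
  have hrdvd : ∀ g, N.relIndex (Subgroup.centralizer ({g} : Set G)) ∣ N.index :=
    fun g => Subgroup.relIndex_dvd_index_of_normal N _
  have hBdvd : ∀ g, B g ∣ Nat.card N := fun g => Subgroup.card_dvd_of_le inf_le_left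
  have hApos : ∀ g, 0 < A g := fun g => Nat.card_pos
  have hAle : ∀ g, A g ≤ N.index * B g := by
    intro g
    rw [hAB g, mul_comm N.index]
    exact Nat.mul_le_mul_left _ (Nat.le_of_dvd hqpos (hrdvd g))
  have hcopB : ∀ g : G, Nat.Coprime (B g) p :=
    fun g => Nat.Coprime.coprime_dvd_left (hBdvd g) hN
  have hidxA : ∀ g : G, (Subgroup.centralizer ({g} : Set G)).index * A g = Nat.card G :=
    fun g => Subgroup.index_mul_card _
  -- (T1)
  have hT1 : ∑ g : G, A g = (1 + N.index * F) * Nat.card G := by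
    rw [← hkG]; exact sum_card_centralizer_univ
  -- (T3)
  have hT3 : ∑ g ∈ Nf, A g = Nat.card G * (1 + F) := by
    have h := sum_card_centralizer_eq (G := G) Nf
    have h2 : ∀ χ : Cfsg.IrrCharacter G, ∑ g ∈ Nf, (χ : G → ℂ) g * conj ((χ : G → ℂ) g)
        = if χ = χ₀ then (Nat.card G : ℂ) else (Nat.card N : ℂ) := by
      intro χ
      have h3 : ∑ g ∈ Nf, (χ : G → ℂ) g * conj ((χ : G → ℂ) g)
          = ∑ n : N, (χ : G → ℂ) n * conj ((χ : G → ℂ) n) :=
        Finset.sum_subtype _ (by simp [Nf]) _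
      rw [h3]
      by_cases hχ : χ = χ₀
      · rw [if_pos hχ, hχ]; exact hsum₀
      · rw [if_neg hχ]; exact hsumχ χ hχ
    rw [Finset.sum_congr rfl (fun χ _ => h2 χ),
      ← Finset.add_sum_erase Finset.univ _ (Finset.mem_univ χ₀), if_pos rfl] at h
    have h4 : ∑ χ ∈ Finset.univ.erase χ₀, (if χ = χ₀ then (Nat.card G : ℂ) else (Nat.card N : ℂ))
        = ((N.index * F : ℕ) : ℂ) * (Nat.card N : ℂ) := by
      have h5 : ∀ χ ∈ Finset.univ.erase χ₀,
          (if χ = χ₀ then (Nat.card G : ℂ) else (Nat.card N : ℂ)) = (Nat.card N : ℂ) :=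
        fun χ hχ => if_neg (Finset.ne_of_mem_erase hχ)
      rw [Finset.sum_congr rfl h5, Finset.sum_const, nsmul_eq_mul]
      congr 2
      have h6 : (Finset.univ.erase χ₀).card + 1 = 1 + N.index * F := by
        rw [Finset.card_erase_add_one (Finset.mem_univ χ₀), Finset.card_univ,
          ← Nat.card_eq_fintype_card, hkG]
      omega
    rw [h4] at h
    have h7 : ((∑ g ∈ Nf, A g : ℕ) : ℂ) = ((Nat.card G * (1 + F) : ℕ) : ℂ) := by
      rw [h, ← hGN]; push_cast; ring
    exact_mod_cast h7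
  -- (T2)
  have hT2 : ∑ g ∈ Nf, B g = (F + N.index) * Nat.card N := by
    have h3 : ∑ g ∈ Nf, B g = ∑ n : N, B n := Finset.sum_subtype _ (by simp [Nf]) _
    rw [h3, ← hkN, ← sum_card_centralizer_univ (G := N)]
    exact Finset.sum_congr rfl fun n _ => card_inf_centralizer_eq N n
  -- (G2)
  have hG2 : ∑ g : G, B g = ∑ x ∈ Nf, A x := by
    have hB : ∀ g : G, B g = ∑ x : G, if x ∈ N ∧ x * g = g * x then 1 else 0 := by
      intro g
      show Nat.card (N ⊓ Subgroup.centralizer ({g} : Set G) : Subgroup G) = _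
      rw [card_subgroup_eq_filter, Finset.card_filter]
      refine Finset.sum_congr rfl fun x _ => ?_
      have hiff : x ∈ N ⊓ Subgroup.centralizer ({g} : Set G) ↔ (x ∈ N ∧ x * g = g * x) := by
        rw [Subgroup.mem_inf, Subgroup.mem_centralizer_singleton_iff]
      by_cases h : x ∈ N ∧ x * g = g * x
      · rw [if_pos h, if_pos (hiff.mpr h)]
      · rw [if_neg h, if_neg (fun h' => h (hiff.mp h'))]
    have hA : ∀ x : G, A x = ∑ g : G, if x * g = g * x then 1 else 0 := by
      intro x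
      show Nat.card (Subgroup.centralizer ({x} : Set G)) = _
      rw [card_subgroup_eq_filter, Finset.card_filter]
      refine Finset.sum_congr rfl fun g _ => ?_
      have hiff : g ∈ Subgroup.centralizer ({x} : Set G) ↔ x * g = g * x := by
        rw [Subgroup.mem_centralizer_singleton_iff]
        exact eq_comm
      by_cases h : x * g = g * x
      · rw [if_pos h, if_pos (hiff.mpr h)]
      · rw [if_neg h, if_neg (fun h' => h (hiff.mp h'))]
    rw [Finset.sum_congr rfl (fun g _ => hB g), Finset.sum_comm, Finset.sum_filter]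
    refine Finset.sum_congr rfl fun x _ => ?_
    by_cases hx : x ∈ N
    · rw [if_pos hx, hA x]
      refine Finset.sum_congr rfl fun g _ => ?_
      by_cases h : x * g = g * x
      · rw [if_pos h, if_pos ⟨hx, h⟩]
      · rw [if_neg h, if_neg (fun h' => h h'.2)]
    · rw [if_neg hx]
      exact Finset.sum_eq_zero fun g _ => if_neg (fun h' => hx h'.1)
  -- Step 4: off `N`, centralizers contain a Sylow `p`-subgroup
  have hstep4 : ∀ g : G, g ∉ N → A g = N.index * B g := by
    have hsplitA := Finset.sum_filter_add_sum_filter_not Finset.univ (fun g : G => g ∈ N) A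
    have hsplitB := Finset.sum_filter_add_sum_filter_not Finset.univ (fun g : G => g ∈ N) B
    have hkey : ∑ g ∈ Finset.univ.filter (fun g : G => g ∉ N), A g
        = ∑ g ∈ Finset.univ.filter (fun g : G => g ∉ N), N.index * B g := by
      rw [← Finset.mul_sum]
      have e1 : Nat.card G * (1 + F) + ∑ g ∈ Finset.univ.filter (fun g : G => g ∉ N), A g
          = (1 + N.index * F) * Nat.card G := by
        rw [← hT3, ← hT1]; exact hsplitA
      have e2 : (F + N.index) * Nat.card N + ∑ g ∈ Finset.univ.filter (fun g : G => g ∉ N), B g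
          = Nat.card G * (1 + F) := by
        rw [← hT2, ← hT3, ← hG2]; exact hsplitB
      zify at e1 e2 hGN ⊢
      linear_combination e1 - (N.index : ℤ) * e2 + ((F : ℤ) + N.index) * hGN
    intro g hg
    exact ((Finset.sum_eq_sum_iff_of_le (fun g _ => hAle g)).mp hkey) g
      (Finset.mem_filter.mpr ⟨Finset.mem_univ _, hg⟩)
  -- Step 5
  have h5a : ∀ g : G, A g = N.index * B g →
      ¬ p ∣ (Subgroup.centralizer ({g} : Set G)).index := by
    intro g hA hdvd
    have h1 := hidxA g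
    rw [hA, ← hGN] at h1
    have h2 : (Subgroup.centralizer ({g} : Set G)).index * B g = Nat.card N := by
      apply Nat.eq_of_mul_eq_mul_left hqpos
      rw [← h1]; ring
    exact hNp (h2 ▸ Dvd.dvd.mul_right hdvd _)
  have h5b : ∀ g : G, g ∈ N → A g = B g ∨ A g = N.index * B g := by
    intro g hg
    have hr := hrdvd g
    rw [hidx] at hr
    obtain ⟨j, -, hj⟩ := (Nat.dvd_prime_pow hp).mp hr
    rcases Nat.eq_zero_or_pos j with rfl | hjpos
    · left
      rw [hAB g, hj]; simp
    · right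
      have hpA : p ∣ Nat.card (Subgroup.centralizer ({g} : Set G)) := by
        show p ∣ A g
        rw [hAB g, hj]
        exact Dvd.dvd.mul_left (dvd_pow_self p hjpos.ne') _
      obtain ⟨a, ha⟩ := exists_prime_orderOf_dvd_card' p hpA
      have hao : orderOf (a : G) = p := by rw [Subgroup.orderOf_coe]; exact ha
      have hac : Commute g (a : G) :=
        (Subgroup.mem_centralizer_singleton_iff.mp a.2).symm
      have haN : (a : G) ∉ N := by
        intro h
        have := Subgroup.orderOf_dvd_natCard N h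
        rw [hao] at this
        exact hNp this
      have hgaN : g * (a : G) ∉ N := fun h =>
        haN (by simpa using N.mul_mem (N.inv_mem hg) h)
      have hcop : Nat.Coprime (orderOf (a : G)) (orderOf g) := by
        rw [hao]
        exact (Nat.Coprime.coprime_dvd_left (Subgroup.orderOf_dvd_natCard N hg) hN).symm
      have hle := centralizer_mul_le_of_coprime hac hcop
      have h1 : A (g * (a : G)) ∣ A g := Subgroup.card_dvd_of_le hle
      rw [hstep4 _ hgaN] at h1
      have h2 : N.index ∣ B g * N.relIndex (Subgroup.centralizer ({g} : Set G)) := by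
        rw [← hAB g]; exact (Dvd.intro _ rfl).trans h1
      have h3 : N.index ∣ N.relIndex (Subgroup.centralizer ({g} : Set G)) := by
        have hc : Nat.Coprime N.index (B g) := by
          rw [hidx]; exact Nat.Coprime.pow_left _ (hcopB g).symm
        exact hc.dvd_of_dvd_mul_left h2
      rw [hAB g, Nat.dvd_antisymm (hrdvd g) h3, mul_comm]
  have h5d : ∀ g : G, A g = B g → p ∣ (Subgroup.centralizer ({g} : Set G)).index := by
    intro g hA
    have h1 := hidxA g
    rw [hA, ← hGN] at h1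
    have h2 : p ∣ (Subgroup.centralizer ({g} : Set G)).index * B g := by
      rw [h1]; exact Dvd.dvd.mul_right hpq _
    exact (Nat.Coprime.dvd_of_dvd_mul_right (Nat.Coprime.symm (hcopB g)) h2)
  let D : Finset G :=
    Finset.univ.filter (fun g => p ∣ (Subgroup.centralizer ({g} : Set G)).index)
  have hD_N : ∀ g ∈ D, g ∈ N ∧ A g = B g := by
    intro g hg
    have hgd : p ∣ (Subgroup.centralizer ({g} : Set G)).index := (Finset.mem_filter.mp hg).2
    have hgN : g ∈ N := by
      by_contra hgN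
      exact h5a g (hstep4 g hgN) hgd
    refine ⟨hgN, ?_⟩
    rcases h5b g hgN with h | h
    · exact h
    · exact absurd hgd (h5a g h)
  have hND : ∀ g ∈ Nf, g ∉ D → A g = N.index * B g := by
    intro g hg hgD
    rcases h5b g (Finset.mem_filter.mp hg).2 with h | h
    · exact absurd (Finset.mem_filter.mpr ⟨Finset.mem_univ g, h5d g h⟩ : g ∈ D) hgD
    · exact h
  -- Step 6
  have hS : ∑ g ∈ D, A g = Nat.card G := by
    have h1 : ∑ g ∈ Nf, (A g + (if g ∈ D then q' * A g else 0)) = ∑ g ∈ Nf, N.index * B g := by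
      refine Finset.sum_congr rfl fun g hg => ?_
      by_cases hgD : g ∈ D
      · rw [if_pos hgD, (hD_N g hgD).2, hq']; ring
      · rw [if_neg hgD, add_zero]; exact hND g hg hgD
    rw [Finset.sum_add_distrib, ← Finset.sum_filter, ← Finset.mul_sum, ← Finset.mul_sum,
      hT3, hT2] at h1
    have h2 : Nf.filter (fun g => g ∈ D) = D := by
      ext g
      simp only [Finset.mem_filter, Nf, Finset.mem_univ, true_and]
      exact ⟨fun h => h.2, fun h => ⟨(hD_N g h).1, h⟩⟩
    rw [h2] at h1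
    have h3 : q' * ∑ g ∈ D, A g = q' * Nat.card G := by
      zify at h1 hGN hq' ⊢
      linear_combination h1 + (Nat.card G : ℤ) * hq' + ((F : ℤ) + N.index) * hGN
    exact Nat.eq_of_mul_eq_mul_left hq'pos h3
  -- Step 7
  have hDne : D.Nonempty := by
    by_contra h
    rw [Finset.not_nonempty_iff_eq_empty] at h
    rw [h, Finset.sum_empty] at hS
    exact Nat.card_pos.ne' hS.symm
  obtain ⟨g₁, hg₁⟩ := hDne
  have hconjD : ∀ x : G, IsConj g₁ x → x ∈ D := by
    intro x hx
    have h1 : p ∣ (Subgroup.centralizer ({g₁} : Set G)).index := (Finset.mem_filter.mp hg₁).2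
    rw [index_centralizer_eq_of_isConj hx] at h1
    exact Finset.mem_filter.mpr ⟨Finset.mem_univ _, h1⟩
  have hsum1 : ∑ x ∈ D.filter (fun x => IsConj g₁ x), A x = Nat.card G := by
    have h1 : D.filter (fun x => IsConj g₁ x) = Finset.univ.filter (fun x => IsConj g₁ x) := by
      ext x
      simp only [Finset.mem_filter, Finset.mem_univ, true_and]
      exact ⟨fun h => h.2, fun h => ⟨hconjD x h, h⟩⟩
    rw [h1]
    have h2 : ∀ x ∈ Finset.univ.filter (fun x => IsConj g₁ x), A x = A g₁ :=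
      fun x hx => (card_centralizer_eq_of_isConj (Finset.mem_filter.mp hx).2).symm
    rw [Finset.sum_congr rfl h2, Finset.sum_const, smul_eq_mul]
    have h3 : (Finset.univ.filter (fun x => IsConj g₁ x)).card
        = (Subgroup.centralizer ({g₁} : Set G)).index := by
      rw [← card_isConj_eq_index, Nat.card_eq_fintype_card, Fintype.card_subtype]
    rw [h3]
    exact hidxA g₁
  have hall : ∀ x ∈ D, IsConj g₁ x := by
    intro x hx
    by_contra hnc
    have h1 := Finset.sum_filter_add_sum_filter_not D (fun x => IsConj g₁ x) A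
    rw [hsum1, hS] at h1
    have h2 : ∑ x ∈ D.filter (fun x => ¬ IsConj g₁ x), A x = 0 := by omega
    have h3 := (Finset.sum_eq_zero_iff.mp h2) x (Finset.mem_filter.mpr ⟨hx, hnc⟩)
    exact (hApos x).ne' h3
  have hcar : ∀ g : G, Nat.card (ConjClasses.mk g).carrier
      = (Subgroup.centralizer ({g} : Set G)).index := by
    intro g
    rw [Nat.card_coe_set_eq]
    exact Helper67.ncard_conjClasses_carrier g
  rw [Nat.card_eq_one_iff_unique]
  refine ⟨⟨?_⟩, ⟨⟨ConjClasses.mk g₁, ?_⟩⟩⟩
  · rintro ⟨C₁, h₁⟩ ⟨C₂, h₂⟩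
    obtain ⟨x₁, rfl⟩ := ConjClasses.mk_surjective C₁
    obtain ⟨x₂, rfl⟩ := ConjClasses.mk_surjective C₂
    rw [hcar] at h₁ h₂
    have e1 := hall x₁ (Finset.mem_filter.mpr ⟨Finset.mem_univ _, h₁⟩)
    have e2 := hall x₂ (Finset.mem_filter.mpr ⟨Finset.mem_univ _, h₂⟩)
    rw [Subtype.mk.injEq]
    exact (ConjClasses.mk_eq_mk_iff_isConj.mpr e1).symm.trans
      (ConjClasses.mk_eq_mk_iff_isConj.mpr e2)
  · rw [hcar]
    exact (Finset.mem_filter.mp hg₁).2

end Count

end Cfsg.Agent.Lib.Helper80
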